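import Cfsg.Agent.H11.SimDSpec

/-! # S3694 (tower SIM), chapter D, job DEa: the image space under an anti-automorphism. -/

set_option autoImplicit false

namespace H81.SimDDEa

open Subgroup Cfsg H98 Matrix H0.Sim H11.SimD

variable {n : ℕ} {F : Type} [Field F] {j : Jm n F}

theorem th_sub (ha : j.a = true) (m : Mt n F) : th j m - 1 =
    (j.c : Mt n F) * ((m - 1).map j.σ)ᵀ * ((j.c⁻¹ : GL (Fin n) F) : Mt n F) := by
  rw [th, if_pos ha, Matrix.map_sub _ (map_sub j.σ), Matrix.map_one _ (map_zero _) (map_one _),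
    transpose_sub, transpose_one, mul_sub, sub_mul, mul_one, Units.mul_inv]

theorem nil_iff (ha : j.a = true) (m : Mt n F) :
    IsNilpotent (th j m - 1) ↔ IsNilpotent (m - 1) := by
  rw [th_sub ha, ← IsNilpotent.map_iff (f := j.σ.mapMatrix) j.σ.mapMatrix.injective (r := m - 1),
    RingEquiv.mapMatrix_apply, ← Matrix.isNilpotent_transpose_iff (A := (m - 1).map j.σ)]
  refine exists_congr fun k => ?_
  rw [Units.conj_pow, Units.mul_left_eq_zero, Units.mul_right_eq_zero]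

theorem dot (ha : j.a = true) (m : Mt n F) (x y : Fin n → F) :
    (fun i => j.σ (x i)) ⬝ᵥ (((j.c⁻¹ : GL (Fin n) F) : Mt n F) *ᵥ ((th j m - 1) *ᵥ y)) =
      (fun i => j.σ (((m - 1) *ᵥ x) i)) ⬝ᵥ (((j.c⁻¹ : GL (Fin n) F) : Mt n F) *ᵥ y) := by
  rw [th_sub ha, ← mulVec_mulVec, ← mulVec_mulVec, inv_mulVec, dotProduct_mulVec, vecMul_transpose]
  congr 1
  ext i
  exact (RingHom.map_mulVec j.σ.toRingHom (m - 1) x i).symm

theorem jobD_DEa : H11.SimD.JobDEa := by
  intro n F _ _ j ha A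
  refine le_antisymm (IS_le ?_) fun v hv => ?_
  · rintro _ ⟨m, hm, rfl⟩ hn y x hx
    rw [dot ha, hx m hm ((nil_iff ha m).1 hn)]
    simp
  by_contra k
  obtain ⟨φ, h1, h2⟩ := Submodule.exists_dual_map_eq_bot_of_notMem k inferInstance
  have h3 : ∀ w ∈ IS (th j '' A), φ w = 0 := fun w hw =>
    (Submodule.mem_bot F).1 (h2 ▸ Submodule.mem_map_of_mem hw)
  obtain ⟨x, hx⟩ : ∃ x : Fin n → F, ∀ w, (fun i => j.σ (x i)) ⬝ᵥ
      (((j.c⁻¹ : GL (Fin n) F) : Mt n F) *ᵥ w) = φ w := by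
    refine ⟨fun i => j.σ.symm ((φ ∘ₗ Matrix.toLin' (j.c : Mt n F)) fun l => if i = l then 1 else 0),
      fun w => ?_⟩
    conv_rhs => rw [← mulVec_inv j.c w, ← Matrix.toLin'_apply, ← LinearMap.comp_apply,
      LinearMap.pi_apply_eq_sum_univ]
    simp only [RingEquiv.apply_symm_apply, dotProduct, smul_eq_mul, mul_comm]
  refine h1 (hx v ▸ hv x fun m hm hn => funext fun i => ?_)
  have := h3 _ (mem_IS (A := th j '' A) ⟨m, hm, rfl⟩ ((nil_iff ha m).2 hn) ((j.c : Mt n F) *ᵥ Pi.single i 1))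
  rw [← hx, dot ha, inv_mulVec, dotProduct_single, mul_one] at this
  exact j.σ.injective (this.trans (map_zero _).symm)

end H81.SimDDEa
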