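/- U4 tower (S5210), slot N1: the Weyl element lies in the automizer of `Q`. -/
import Cfsg.Agent.H28.U4Gen

set_option autoImplicit false
set_option linter.unusedSimpArgs false
set_option linter.unusedSectionVars false

open Subgroup H90.RF
open H90.U5 (BF)
open H28.U4

universe v

namespace H81.U4N1

variable {K : Type*} [Field K] [Finite K] {T : BF K}

/-- the defect in the last coordinate is an additive function on `W` -/
theorem exists_f {β : Co T → Co T} (a : Au (sQ T) β) {g : K × K → K × K}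
    (e : ∀ u ∈ sQ T, (β u).π = g u.π)
    (hg : ∀ x y, (g x).1 * T.σ (g y).2 - (g x).2 * T.σ (g y).1 = x.1 * T.σ y.2 - x.2 * T.σ y.1) :
    ∃ f : K × K → K, (∀ x y, f (x + y) = f x + f y) ∧ (∀ x, T.σ (f x) = f x) ∧
      ∀ u ∈ sQ T, (β u).d = u.d + f u.π := by
  have m : ∀ u ∈ sQ T, ∀ w ∈ sQ T, (β u).a * T.σ (β w).c - (β u).c * T.σ (β w).a =
      u.a * T.σ w.c - u.c * T.σ w.a := fun u hu w hw => by
    have := hg u.π w.π
    rwa [← e u hu, ← e w hw] at this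
  have ad : ∀ u ∈ sQ T, ∀ w ∈ sQ T, (β (u * w)).d - (u * w).d =
      ((β u).d - u.d) + ((β w).d - w.d) := fun u hu w hw => by
    have h1 : (β w).b = 0 := a.mem w hw
    have h2 : w.b = 0 := hw
    rw [a.mul u hu w hw, Co.mul_d, Co.mul_d, h1, h2]
    linear_combination m u hu w hw
  have hZ : ∀ u ∈ sZ T, (β u).d - u.d = 0 := fun u hu => by
    obtain ⟨t, rfl⟩ := Z_cm hu
    have h1 := ad _ (show xc T t ∈ sQ T from rfl) _ (Z_le_Q hu)
    have h2 := ad _ (mul_mem (show xc T t ∈ sQ T from rfl) (Z_le_Q hu)) _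
      (show xa T 1 ∈ sQ T from rfl)
    have h3 := ad _ (show xa T 1 ∈ sQ T from rfl) _ (show xc T t ∈ sQ T from rfl)
    rw [← conj_eq_cm, inv_mul_cancel_right] at h2
    rw [← conj_eq_cm] at h1
    linear_combination h3 - h2 - h1
  have key : ∀ u ∈ sQ T, ∀ w ∈ sQ T, w.π = u.π → (β w).d - w.d = (β u).d - u.d :=
    fun u hu w hw h => by
      have := ad u hu _ (mul_mem (inv_mem hu) hw)
      rwa [mul_inv_cancel_left, hZ _ ((Q_mod hu hw).2 h), add_zero] at this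
  refine ⟨fun x => (β (w1 T x)).d - (w1 T x).d, fun x y => ?_, fun x => ?_, fun u hu => ?_⟩
  · rw [← ad _ (w1_mem x) _ (w1_mem y)]
    exact key _ (mul_mem (w1_mem x) (w1_mem y)) _ (w1_mem _) (by rw [π_mul (w1_mem y)]; rfl)
  · rw [map_sub, Co.σd, Co.σd]
    linear_combination -m _ (w1_mem x) _ (w1_mem x)
  · simp only
    rw [key u hu _ (w1_mem u.π) rfl]
    ring

theorem jobN1 : H28.U4.JobN1.{v} := by
  intro p _ K _ _ _ T hAS hG Y0 Y1 Y2 t S
  have inn : ∀ s, ∃ ι ∈ Y1, ∀ u ∈ sQ T, ι u = s * u * s⁻¹ := fun s => by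
    obtain ⟨y, hy, e⟩ := t.inn s
    exact (t.res1 y hy).imp fun α k => ⟨k.1, fun u hu => (k.2 u hu).trans (e u)⟩
  have cQ : ∀ s, ∀ u ∈ sQ T, s * u * s⁻¹ ∈ sQ T := fun s u hu => nQ.conj_mem u hu s
  obtain ⟨α', hα', a', e'⟩ := S.n1
  rcases hG with hI | ⟨s, hσ, hs0, hs1⟩
  · have m := au_nu1 (T := T)
    obtain ⟨w, -, e⟩ := hI _ (a'.comp (m.comp (m.comp m))) fun u hu => by
      rw [e' _ (m.mem _ (m.mem _ (m.mem u hu)))]
      ext <;> simp [nb_apply, Co.π, Co.nu1]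
    obtain ⟨ι, hι, k⟩ := inn w⁻¹
    obtain ⟨y, hy, k'⟩ := exists_cjY 1 (mul_mem hι hα')
    refine ⟨1, fun _ => rfl, y, hy, fun u hu => ?_⟩
    have h1 := e _ (m.mem u hu)
    rw [nu1_pow hu] at h1
    rw [← show ι (α' u) = y u from k' u, k _ (a'.mem u hu), h1]
    group
  obtain ⟨α, hα, a, e⟩ := S.tor (Units.mk0 s hs0) hσ
  simp only [hs_apply, Units.val_mk0] at e
  obtain ⟨f, fa, fσ, ef⟩ := exists_f a (g := fun w => (s⁻¹ * w.1, s * w.2)) e fun x y => by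
    simp only [map_mul, map_inv₀, hσ]; field_simp
  obtain ⟨f', fa', -, ef'⟩ := exists_f a' e' fun x y => by
    simp only [nb_apply, map_neg]; ring
  obtain ⟨y, hy, ey⟩ := t.ext1 α hα ((pl_iff (g := fun w => (s⁻¹ * w.1, s * w.2)) a e).1
    fun w hw => by simp [hw])
  have ay := t.l0.au y hy
  have hm : (y (xb T 1 (map_one _))).a = 0 := (hAS.1 y ay).2.2.1 _ rfl
  have hc : ∀ x : K, α (cm (xa T x) (xb T 1 (map_one _))) =
      cm (α (xa T x)) (y (xb T 1 (map_one _))) := fun x => by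
    rw [ey _ (D_le_Q (cm_D _ _)), ay.cm trivial trivial, ey _ rfl]
  generalize y (xb T 1 (map_one _)) = m at hm hc
  have ha : ∀ x : K, (α (xa T x)).a = s⁻¹ * x := fun x => congrArg Prod.fst (e (xa T x) rfl)
  have hb : m.b = s ^ 2 := by
    have h1 := congrArg Prod.snd (e _ (D_le_Q (cm_D (xa T 1) (xb T 1 (map_one _)))))
    rw [hc] at h1
    simp only [Co.π, cm_c, ha, hm, xb, zero_mul] at h1
    simp only [xa] at h1
    field_simp at h1
    linear_combination h1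
  obtain ⟨γ, hγ⟩ : ∃ γ, ∀ x, f (0, x) = bf T (γ, 0) (0, x) :=
    ⟨m.c / s, fun x => by
      have h1 := ef _ (D_le_Q (cm_D (xa T x) (xb T 1 (map_one _))))
      rw [hc, cm_dA _ hm, cm_dA _ rfl, ha, hb] at h1
      simp only [Co.π, cm_a, cm_c, map_mul, map_inv₀, hσ] at h1
      simp only [xa, xb, map_zero, mul_zero, mul_one, zero_add, sub_zero] at h1
      simp only [bf, map_div₀, hσ, map_zero]
      field_simp at h1 ⊢
      linear_combination -h1⟩
  obtain ⟨ι, hι, k⟩ := inn (xa T (-γ))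
  have a1 := t.l1.au _ (mul_mem hα hι)
  have e1 : ∀ u ∈ sQ T, ((α * ι) u).π = (s⁻¹ * u.a, s * u.c) ∧
      ((α * ι) u).d = u.d + f (u.a, 0) := fun u hu => by
    obtain ⟨h1, h2⟩ := cj_QQ (s := xa T (-γ)) rfl hu
    rw [Equiv.Perm.mul_apply, k u hu, e _ (cQ _ u hu), ef _ (cQ _ u hu), h1, h2]
    refine ⟨rfl, ?_⟩
    have h3 := fa (u.a, 0) (0, u.c)
    rw [hγ] at h3
    simp only [Prod.mk_add_mk, add_zero, zero_add] at h3
    simp only [Co.π, h3, bf, xa, map_neg, map_zero]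
    ring
  have hα1 := mul_mem hα hι
  generalize α * ι = η at e1 a1 hα1
  have s1 : s - 1 ≠ 0 := sub_ne_zero.2 hs1
  have s2 : s⁻¹ - 1 ≠ 0 := sub_ne_zero.2 (by simpa using hs1)
  obtain ⟨θ, hθ⟩ := exists_thC (T := T) (fun x => f (x / (s⁻¹ - 1), 0)) (fun _ => 0)
    (fun x y => by rw [← fa, add_div]; simp) (fun x => fσ _) (by simp) (by simp)
  obtain ⟨w, hw, ew⟩ := t.rad1 (α'⁻¹ * (η * (α' * η)))
    (mul_mem (inv_mem hα') (mul_mem hα1 (mul_mem hα' hα1))) fun u hu => by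
      have h1 := a1.mem _ (a'.mem _ (a1.mem u hu))
      have h2 := e' _ ((au_inv a').mem _ h1)
      simp only [Equiv.Perm.coe_inv, Equiv.apply_symm_apply] at h2
      rw [(e1 _ (a'.mem _ (a1.mem u hu))).1] at h2
      have h3 := e' _ (a1.mem u hu)
      rw [(e1 u hu).1] at h3
      simp only [Co.π, nb_apply, Prod.mk.injEq] at h2 h3
      rw [h3.1, h3.2] at h2
      refine Prod.ext ?_ ?_
      · change (α'.symm (η (α' (η u)))).a = u.a
        rw [← neg_inj, ← h2.2]; field_simp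
      · change (α'.symm (η (α' (η u)))).c = u.c
        rw [← h2.1]; field_simp
  have fs : ∀ g : K × K → K, (∀ x y, g (x + y) = g x + g y) → ∀ x y, g (x - y) = g x - g y :=
    fun g h x y => by rw [eq_sub_iff_add_eq, ← h, sub_add_cancel]
  have hF : ∀ x : K × K, f' x + f (x.1 / (s⁻¹ - 1), 0) - f (x.2 / (s⁻¹ - 1), 0) =
      bf T (w.a / (s - 1), w.c / (s⁻¹ - 1)) x := fun x => by
    have hu := w1_mem (T := T) (x.1 / (s⁻¹ - 1), x.2 / (s - 1))
    have h1 : η (α' (η _)) = α' _ := Equiv.Perm.inv_eq_iff_eq.1 (ew _ hu)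
    have h2 := congrArg Co.d h1
    have h3 := congrArg Prod.fst (e' _ (a1.mem _ hu))
    rw [(e1 _ hu).1] at h3
    obtain ⟨h4, h5⟩ := cj_QQ hw hu
    rw [(e1 _ (a'.mem _ (a1.mem _ hu))).2, ef' _ (a1.mem _ hu), (e1 _ hu).1, (e1 _ hu).2,
      ef' _ (cQ _ _ hu), h4, h5, show (α' (η _)).a = _ from h3] at h2
    have h6 := fs f' fa' (s⁻¹ * (x.1 / (s⁻¹ - 1)), s * (x.2 / (s - 1)))
      (x.1 / (s⁻¹ - 1), x.2 / (s - 1))
    have h7 := fs f fa 0 (x.2 / (s⁻¹ - 1), 0)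
    have h8 := fa 0 0
    have h9 : ((s⁻¹ * (x.1 / (s⁻¹ - 1)), s * (x.2 / (s - 1))) : K × K) -
        (x.1 / (s⁻¹ - 1), x.2 / (s - 1)) = x := by
      ext
      · simp only [Prod.fst_sub]; rw [← sub_one_mul, mul_div_cancel₀ _ s2]
      · simp only [Prod.snd_sub]; rw [← sub_one_mul, mul_div_cancel₀ _ s1]
    have h10 : (0 : K × K) - (x.2 / (s⁻¹ - 1), 0) = (s * (x.2 / (s - 1)), 0) := by
      have s3 : 1 - s ≠ 0 := sub_ne_zero.2 hs1.symm
      ext
      · simp only [Prod.fst_sub, Prod.fst_zero]; field_simp; ring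
      · simp
    rw [h9] at h6
    rw [h10] at h7
    rw [add_zero] at h8
    have h11 : bf T w.π (x.1 / (s⁻¹ - 1), x.2 / (s - 1)) =
        bf T (w.a / (s - 1), w.c / (s⁻¹ - 1)) x := by
      simp only [bf, Co.π, map_div₀, map_sub, map_inv₀, hσ, map_one]; ring
    simp only [w1_π, nb_apply] at h2
    simp only [w1] at h2
    linear_combination h2 + h6 - h7 + h8 + h11
  obtain ⟨ι', hι', k'⟩ := inn (w1 T (-(w.a / (s - 1), w.c / (s⁻¹ - 1))))
  obtain ⟨n, hn, en⟩ := exists_cjY θ (mul_mem hα' hι')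
  refine ⟨θ, fun u => Prod.ext (hθ u).1 (hθ u).2.2.1, n, hn, fun u hu => θ.injective ?_⟩
  have hu' : θ u ∈ sQ T := (hθ u).2.1.trans hu
  have hπ : (θ u).π = u.π := Prod.ext (hθ u).1 (hθ u).2.2.1
  obtain ⟨h1, h2⟩ := cj_QQ (w1_mem (-(w.a / (s - 1), w.c / (s⁻¹ - 1)))) hu'
  rw [← en, Equiv.Perm.mul_apply, k' _ hu']
  refine eq_of_Q (a'.mem _ (cQ _ _ hu')) (hθ _).2.1 ?_ ?_
  · rw [e' _ (cQ _ _ hu'), h1, hπ]
    exact (Prod.ext (hθ _).1 (hθ _).2.2.1).symm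
  · rw [ef' _ (cQ _ _ hu'), h1, h2, hπ, (hθ _).2.2.2, (hθ _).2.2.2]
    have h3 := hF u.π
    simp only [bf, Co.π, Co.nu1, w1, Prod.fst_neg, Prod.snd_neg, map_neg] at h3 ⊢
    linear_combination h3

end H81.U4N1
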