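/- U4 tower (S5210), slot Opp: in odd characteristic the images of the line are opposite. -/
import Cfsg.Agent.H28.U4Gen

set_option autoImplicit false

open H90.U5 (BF)
open H28.U4

universe v

namespace H81.U4Opp

variable {K : Type*} [Field K] {T : BF K}

theorem dep {a c x : K} (ha : a ≠ 0) (hc : c ≠ 0) (h1 : a * T.σ c + T.σ a * c = 0)
    (h2 : x * T.σ c + T.σ x * c = 0) : ∃ l, T.σ l = l ∧ x = l * a := by
  obtain ⟨l, hl⟩ := T.exists_mul (x := x) ha (mul_right_cancel₀ hc (by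
    linear_combination x * h1 - a * h2))
  exact ⟨l, l.2, hl⟩

theorem bf0 (x : K × K) (c : K) : bf T x (0, c) = x.1 * T.σ c + T.σ x.1 * c := by simp [bf]

variable (T) in
/-- linear, fixes `w`, keeps the pairing with `w` -/
structure Gd (G : Subgroup (Equiv.Perm (K × K))) (w : K × K) (h : Equiv.Perm (K × K)) : Prop where
  mem : h ∈ G
  lin : ∀ l, T.σ l = l → ∀ x, h (l • x) = l • h x
  fix : h w = w
  bf : ∀ x, bf T (h x) w = bf T x w

theorem Gd.mul {G : Subgroup (Equiv.Perm (K × K))} {w : K × K} {h k : Equiv.Perm (K × K)}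
    (a : Gd T G w h) (b : Gd T G w k) : Gd T G w (h * k) :=
  ⟨mul_mem a.mem b.mem, fun l hl x => by
    rw [Equiv.Perm.mul_apply, b.lin l hl, a.lin l hl]; rfl,
    by rw [Equiv.Perm.mul_apply, b.fix, a.fix], fun x => by
    rw [Equiv.Perm.mul_apply, a.bf, b.bf]⟩

variable [Finite K] {p : ℕ} {G : Subgroup (Equiv.Perm (K × K))}

theorem fin (h2 : (2 : K) ≠ 0) [CharP K p] (S : Sp T p G) {c a lam s : K} {f : K × K}
    (hc : c ≠ 0) (ha : a ≠ 0) (hac : a * T.σ c + T.σ a * c = 0) (hf : f.1 = lam * a)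
    (hl : lam ≠ 0) {h : Equiv.Perm (K × K)} (hh : Gd T G (0, c) h)
    (he : ∀ β, T.σ β = β → h (0, β * a) = (0, s * β * a)) (hsf : h (s • f) = f)
    (hσ : T.σ (s * lam) = s * lam) : s ^ 2 = 1 := by
  have hσc : T.σ c ≠ 0 := (map_ne_zero _).2 hc
  have s2 : T.σ 2 = 2 := map_ofNat _ 2
  have pl : PL h := by
    rintro ⟨x, y⟩ (rfl : x = 0)
    have hα : T.σ ((y * T.σ c + T.σ y * c) / (2 * (c * T.σ c))) =
        (y * T.σ c + T.σ y * c) / (2 * (c * T.σ c)) := by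
      simp only [map_div₀, map_add, map_mul, T.sq, s2]; ring
    obtain ⟨β, hβ, e⟩ := dep (T := T) (x := y - (y * T.σ c + T.σ y * c) / (2 * (c * T.σ c)) * c)
      ha hc hac (by rw [map_sub, map_mul, hα]; field_simp; ring)
    have : ((0, y) : K × K) = ((y * T.σ c + T.σ y * c) / (2 * (c * T.σ c))) • ((0, c) : K × K) +
        (0, β * a) := by
      rw [← e]; simp
    rw [this, S.add h hh.mem, hh.lin _ hα, hh.fix, he β hβ]
    simp
  obtain ⟨b, hb, e⟩ := S.pel (h * ub 1 * h⁻¹) (mul_mem (mul_mem hh.mem (S.uu 1 (map_one _)))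
    (inv_mem hh.mem)) ((pl.mul fun _ hw => hw).mul pl.inv) ⟨1, by
      rw [pow_one, conj_pow, ub_pow, CharP.cast_eq_zero, zero_mul, ub_zero]; simp⟩
  have e' : ∀ x : K × K, h x + h (0, x.1) = ub b (h x) := fun x => by
    rw [← e, ← S.add h hh.mem]
    simp only [Equiv.Perm.mul_apply, Equiv.Perm.coe_inv, Equiv.symm_apply_apply]
    congr 1
    ext <;> simp [ub_apply]
  have h3 : b = s ^ 2 := by
    have h4 := e' (s • f)
    rw [hsf, Prod.smul_fst, hf, smul_eq_mul, ← mul_assoc, he _ hσ] at h4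
    have h5 := congrArg Prod.snd h4
    simp only [Prod.snd_add, ub_apply, hf] at h5
    exact mul_right_cancel₀ (mul_ne_zero hl ha) (by linear_combination -h5)
  have h4 := congrArg Prod.snd (e' (c, 0))
  rw [hh.fix] at h4
  simp only [Prod.snd_add, ub_apply, add_right_inj] at h4
  have h5 := hh.bf (c, 0)
  rw [bf0, bf0] at h5
  have h6 := congrArg T.σ h4
  rw [map_mul, hb] at h6
  rw [← h3]
  exact mul_right_cancel₀ (mul_ne_zero h2 (mul_ne_zero hc hσc)) (by
    linear_combination -b * h5 - T.σ c * h4 - c * h6)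

theorem jobOpp : JobOpp.{v} := by
  intro p _ K _ _ _ T h2 ⟨s, hσs, hs0, hs1, hs2⟩ G S g hg
  by_contra! k
  obtain ⟨k1, v0, hv0, hw0, hv⟩ := k
  obtain ⟨v1, hv1, ha⟩ : ∃ v1 : K × K, v1.1 = 0 ∧ (g v1).1 ≠ 0 := by simpa [PL] using k1
  obtain ⟨ζ, z0, z1, z2, -⟩ := S.form g hg
  have g0 : g 0 = 0 := by simpa using S.add g hg 0 0
  set a := (g v1).1 with hadef
  set c := (g v0).2 with hcdef
  have hw : g v0 = (0, c) := Prod.ext hw0 rfl
  have hc : c ≠ 0 := fun h => hv (g.injective (by rw [hw, h, g0]; rfl))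
  have iso : ∀ x y : K × K, x.1 = 0 → y.1 = 0 → bf T (g x) (g y) = 0 := fun x y hx hy => by
    rw [z2, show bf T x y = 0 by simp [bf, hx, hy], z0]
  have hac : a * T.σ c + T.σ a * c = 0 := by rw [← bf0, ← hw, iso _ _ hv1 hv0]
  let N : K × K → K × K := fun w => g (0, (g⁻¹ w).1)
  have sm : ∀ l, T.σ l = l → ∃ l', T.σ l' = l' ∧ (∀ x, g⁻¹ (l • x) = l' • g⁻¹ x) ∧
      ∀ x, g (l' • x) = l • g x := fun l hl => by
    obtain ⟨l', h1, h3⟩ := S.semi _ (inv_mem hg) l hl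
    exact ⟨l', h1, h3, fun x => by
      have := h3 (g x)
      simp only [Equiv.Perm.coe_inv, Equiv.symm_apply_apply] at this
      rw [← this, Equiv.apply_symm_apply]⟩
  have Nl : ∀ l, T.σ l = l → ∀ x, N (l • x) = l • N x := fun l hl x => by
    obtain ⟨l', -, h1, h3⟩ := sm l hl
    simp only [N]
    rw [h1, ← h3]; simp
  have N0 : ∀ x : K × K, x.1 = 0 → N (g x) = 0 := fun x hx => by
    simpa [N, hx, Prod.mk_zero_zero] using g0
  have hU : ∀ t, T.σ t = t → ∃ u, Gd T G (0, c) u ∧ ∀ x, u x = x + t • N x := fun t ht => by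
    obtain ⟨b, hb, -, h3⟩ := sm t ht
    have e : ∀ x, (g * ub b * g⁻¹) x = x + t • N x := fun x => by
      have : ub b (g⁻¹ x) = g⁻¹ x + b • ((0, (g⁻¹ x).1) : K × K) := by ext <;> simp [ub_apply]
      rw [Equiv.Perm.mul_apply, Equiv.Perm.mul_apply, this, S.add g hg, h3]
      simp [N]
    refine ⟨_, ⟨mul_mem (mul_mem hg (S.uu b hb)) (inv_mem hg), fun l hl x => ?_, ?_, fun x => ?_⟩, e⟩
    · rw [e, e, Nl l hl, smul_add, smul_comm]
    · rw [e, ← hw, N0 _ hv0]; simp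
    · rw [e, bf_swap, bf_add, bf_smul ht, ← hw, iso _ _ hv0 rfl, bf_swap]; simp
  have hV : ∀ x, T.σ x = x → Gd T G (0, c) (ub x) := fun x hx =>
    ⟨S.uu x hx, fun l _ w => by ext <;> simp [ub_apply]; ring, by simp [ub_apply],
      fun w => by simp [bf0, ub_apply]⟩
  have ne2 : ∀ x : K, x ≠ 0 → x * T.σ x + T.σ x * x ≠ 0 := fun x hx h =>
    mul_ne_zero h2 (mul_ne_zero hx ((map_ne_zero T.σ).2 hx)) (by linear_combination h)
  have hy : (g⁻¹ (0, a)).1 ≠ 0 := fun h => ne2 a ha (by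
    have := iso _ _ hv1 h
    simp only [Equiv.Perm.coe_inv, Equiv.apply_symm_apply] at this
    rwa [bf0] at this)
  set f := N (0, a) with hfdef
  have hf0 : f.1 ≠ 0 := fun h => ne2 _ hy (by
    have h1 := z2 (g⁻¹ (0, a)) (0, (g⁻¹ (0, a)).1)
    rw [bf0] at h1
    refine z1 _ (by simp [T.sq, add_comm]) (h1.symm.trans ?_)
    change bf T (g (g⁻¹ (0, a))) f = 0
    simp [bf, h])
  obtain ⟨lam, hσl, hf⟩ := dep (T := T) (x := f.1) ha hc hac (by
    rw [← bf0, ← hw]; exact iso _ _ rfl hv0)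
  have hl : lam ≠ 0 := fun h => hf0 (by rw [hf, h, zero_mul])
  have Nf : N f = 0 := N0 _ rfl
  let cb : K → K → K × K := fun α β => α • ((0, a) : K × K) + β • f
  have c1 : ∀ x α β, ub x (cb α β) = cb (α + x * lam * β) β := fun x α β => by
    ext <;> simp [cb, ub_apply, hf]; ring
  have c2 : ∀ t u, Gd T G (0, c) u → (∀ x, u x = x + t • N x) → ∀ α β, T.σ α = α → T.σ β = β →
      u (cb α β) = cb α (β + t * α) := fun t u hu e α β hα hβ => by
    simp only [cb]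
    rw [S.add u hu.mem, hu.lin _ hα, hu.lin _ hβ, e, e, Nf, ← hfdef]
    module
  obtain ⟨u1, g1, e1⟩ := hU (-1 / s) (by simp [hσs])
  obtain ⟨u2, g2, e2⟩ := hU 1 (map_one _)
  have x1 : T.σ (s / lam) = s / lam := by simp [hσs, hσl]
  have x2 : T.σ (-1 / lam) = -1 / lam := by simp [hσl]
  have hh := ((hV _ x1).mul (g1.mul (hV _ x1))).mul ((hV _ x2).mul (g2.mul (hV _ x2)))
  have hc' : ∀ α β, T.σ α = α → T.σ β = β → (ub (s / lam) * (u1 * ub (s / lam)) *
      (ub (-1 / lam) * (u2 * ub (-1 / lam)))) (cb α β) = cb (s * α) (β / s) := fun α β hα hβ => by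
    simp only [Equiv.Perm.mul_apply]
    rw [c1, c2 _ _ g2 e2 _ _ (by simp [hα, hβ, hσl]) hβ, c1, c1,
      c2 _ _ g1 e1 _ _ (by simp [hα, hβ, hσl, hσs]) (by simp [hα, hβ, hσl]), c1]
    congr 1 <;> field_simp <;> ring
  have h3 := fin h2 S hc ha hac hf hl hh (fun β hβ => by
    simpa [cb] using hc' β 0 hβ (map_zero _)) (by
    simpa [cb, hs0, Prod.mk_zero_zero] using hc' 0 s (map_zero _) hσs) (by rw [map_mul, hσs, hσl])
  rcases sq_eq_one_iff.1 h3 with h | h
  exacts [hs1 h, hs2 h]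

end H81.U4Opp
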