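import Cfsg.Agent.H36.O84Spec
/-! Abelian subgroups of order 625 are conjugate to the torus. -/
set_option autoImplicit false
open Subgroup H36.O84 Matrix
open scoped Pointwise
namespace H81.O84U3

variable {Γ : Type} [Group Γ] {τ : Multiplicative V →* Γ} {g h : Γ} {M N : M4}

theorem amul (a : Act τ g M) (b : Act τ h N) : Act τ (g * h) (M * N) := fun x => by
  rw [← mulVec_mulVec, ← a, ← b]; group

theorem aone (hg : g ∈ τ.range) : Act τ g 1 := fun x => by
  obtain ⟨y, rfl⟩ := hg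
  rw [one_mulVec, ← map_mul, mul_comm, map_mul, mul_inv_cancel_right]

theorem apow (a : Act τ g M) (k : ℕ) : Act τ (g ^ k) (M ^ k) := by
  induction k with
  | zero => simpa using aone (one_mem _)
  | succ k ih => rw [pow_succ, pow_succ]; exact amul ih a

theorem cardV : Nat.card V = 625 := by simp [V]

theorem jobU3 : JobU3 := by
  intro Γ _ _ S c5 B hB hc
  have : Fact (Nat.Prime 5) := ⟨Nat.prime_five⟩
  have hT : Nat.card S.T = 5 ^ 4 :=
    (Nat.card_congr (MonoidHom.ofInjective S.inj).toEquiv).symm.trans cardV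
  obtain ⟨g, hg⟩ : ∃ g, Act S.τ g v5 :=
    ⟨_, amul (amul (amul (S.νA 20) (S.νA 6)) (S.νA 1)) (S.νA 0)⟩
  have fx : ∀ {y : Γ} {M : M4} (a : V), Act S.τ y M →
      y * S.τ (Multiplicative.ofAdd a) = S.τ (Multiplicative.ofAdd a) * y → M *ᵥ a = a :=
    fun a h e => Multiplicative.ofAdd.injective (S.inj (by rw [← h, e, mul_inv_cancel_right]))
  have g0 : g ∉ S.T := fun h => by
    have h1 := c5.2 1 (by norm_num) (by norm_num)
    rw [Set.eq_univ_of_forall (s := {a : V | (v5 ^ 1) *ᵥ a = a}) fun a => fx a (apow hg 1) (by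
      rw [pow_one, ← mul_inv_eq_iff_eq_mul, aone h, one_mulVec]), Set.ncard_univ, cardV] at h1
    omega
  have g5 : g ^ 5 ∈ S.T := S.cT _ (c5.1 ▸ apow hg 5)
  have pT : IsPGroup 5 S.T := IsPGroup.of_card hT
  have pg : IsPGroup 5 (zpowers g) := by
    obtain ⟨k, hk⟩ := pT ⟨_, g5⟩
    have h1 : g ^ 5 ^ (k + 1) = 1 := by
      rw [pow_succ', pow_mul]; exact congrArg Subtype.val hk
    obtain ⟨b, -, hb⟩ := (Nat.dvd_prime_pow Nat.prime_five).1 (orderOf_dvd_of_pow_eq_one h1)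
    exact IsPGroup.of_card (by rw [Nat.card_zpowers, hb])
  have nz : ∀ {y : Γ} {M : M4}, Act S.τ y M → y ∈ normalizer (S.T : Set Γ) := fun h =>
    mem_normalizer_fintype (S := (S.T : Set Γ)) (by rintro _ ⟨a, rfl⟩; exact ⟨_, (h a).symm⟩)
  have pP : IsPGroup 5 (S.T ⊔ zpowers g : Subgroup Γ) :=
    pT.to_sup_of_normal_left' pg (zpowers_le.2 (nz hg))
  obtain ⟨Q, hQ⟩ := pP.exists_le_sylow
  obtain ⟨n, hn⟩ := IsPGroup.iff_card.1 pP
  obtain ⟨m, hm⟩ := IsPGroup.iff_card.1 Q.isPGroup'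
  have m5 : m ≤ 5 := by
    by_contra k
    exact S.n56 ((pow_dvd_pow 5 (by omega)).trans (hm ▸ card_subgroup_dvd_card _))
  have n5 : 4 < n := (Nat.pow_lt_pow_iff_right (by norm_num : 1 < 5)).1 (by
    rw [← hT, ← hn]
    refine lt_of_le_of_ne (card_le_of_le le_sup_left) fun e => g0 ?_
    rw [eq_of_le_of_card_ge (le_sup_left : S.T ≤ S.T ⊔ zpowers g) e.ge]
    exact mem_sup_right (mem_zpowers g))
  have hPQ : S.T ⊔ zpowers g = Q := eq_of_le_of_card_ge hQ (by
    rw [hn, hm]; exact Nat.pow_le_pow_right (by norm_num) (by omega))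
  have cQ : Nat.card Q = 5 ^ 5 := by
    have : n = m := Nat.pow_right_injective (by norm_num : 2 ≤ 5) (by
      show 5 ^ n = 5 ^ m
      rw [← hn, ← hm, hPQ])
    rw [hm, show m = 5 by omega]
  have act : ∀ y ∈ (Q : Subgroup Γ), ∃ k, Act S.τ y (v5 ^ k) := fun y hy => by
    let P' : Subgroup Γ :=
      { carrier := {y | ∃ k, Act S.τ y (v5 ^ k)}
        mul_mem' := fun ⟨a, ha⟩ ⟨b, hb⟩ => ⟨a + b, pow_add v5 a b ▸ amul ha hb⟩
        one_mem' := ⟨0, aone (one_mem _)⟩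
        inv_mem' := fun {x} ⟨a, ha⟩ => ⟨a * (orderOf x - 1), by
          rw [inv_eq_of_mul_eq_one_right (mul_pow_sub_one (orderOf_pos x).ne' x ▸
            pow_orderOf_eq_one x), pow_mul]
          exact apow ha _⟩ }
    exact (sup_le (fun t ht => ⟨0, aone ht⟩) (zpowers_le.2 ⟨1, by rwa [pow_one]⟩) :
      S.T ⊔ zpowers g ≤ P') (hPQ ▸ hy)
  obtain ⟨Q', hQ'⟩ := (IsPGroup.of_card (p := 5) (n := 4) hc).exists_le_sylow
  obtain ⟨x, hx⟩ := MulAction.exists_smul_eq Γ Q' Q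
  have hle : cS x B ≤ Q := by
    rw [← hx]
    exact map_mono hQ'
  have cB : Nat.card (cS x B) = 625 := by
    rw [card_map_of_injective (MulAut.conj x).injective, hc]
  refine ⟨x, eq_of_le_of_card_ge (fun y hy => ?_) (by rw [cB, hT]; norm_num)⟩
  by_contra hy0
  obtain ⟨k, hk⟩ := act y (hle hy)
  rw [pow_eq_pow_mod k c5.1] at hk
  have k0 : 0 < k % 5 := Nat.pos_of_ne_zero fun e => hy0 (S.cT y (by rwa [e, pow_zero] at hk))
  have h1 := c5.2 _ k0 (Nat.mod_lt _ (by norm_num))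
  have h2 : Nat.card (S.T ⊓ cS x B : Subgroup Γ) ≤ 5 := by
    refine le_trans ?_ ((Set.ncard_image_le (f := fun a => S.τ (Multiplicative.ofAdd a))).trans h1)
    refine (Nat.card_coe_set_eq (S.T ⊓ cS x B : Subgroup Γ).carrier).le.trans
      (Set.ncard_le_ncard ?_ (Set.toFinite _))
    rintro _ ⟨⟨a, rfl⟩, u, hu, e⟩
    refine ⟨a, fx a hk ?_, rfl⟩
    obtain ⟨w, hw, rfl⟩ := hy
    change _ * S.τ a = S.τ a * _
    rw [← e, ← map_mul, ← map_mul, hB w hw u hu]
  have h3 := (S.T.subgroupOf (cS x B)).card_mul_index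
  rw [← inf_subgroupOf_right, Nat.card_congr (subgroupOfEquivOfLe inf_le_right).toEquiv,
    inf_subgroupOf_right, cB] at h3
  have h4 := (S.T.subgroupOf (Q : Subgroup Γ)).card_mul_index
  rw [Nat.card_congr (subgroupOfEquivOfLe (le_sup_left.trans hQ)).toEquiv, hT, cQ] at h4
  have h5 : S.T.relIndex (cS x B) ≤ S.T.relIndex Q :=
    relIndex_le_of_le_right hle index_ne_zero_of_finite
  unfold relIndex at h5
  nlinarith

end H81.O84U3
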