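import Cfsg.Agent.H42.IVSpec
import Mathlib.Analysis.Complex.ExponentialBounds
import Mathlib.Analysis.SpecialFunctions.Exp
/-! The asymptotic inequality. -/
set_option autoImplicit false
open Nat H42.IV
namespace H81.IVNumL

theorem sq_le (h : ℕ) : (2 ^ h * h !) ^ 2 ≤ (2 * h + 1)! := by
  induction h with
  | zero => simp
  | succ h ih =>
    rw [show 2 * (h + 1) + 1 = 2 * h + 1 + 1 + 1 by ring, factorial_succ (2 * h + 1 + 1), factorial_succ (2 * h + 1),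
      factorial_succ h]
    calc (2 ^ (h + 1) * ((h + 1) * h !)) ^ 2
        = (2 * h + 1 + 1) * ((2 * h + 1 + 1) * (2 ^ h * h !) ^ 2) := by ring
      _ ≤ _ := by gcongr; omega

theorem stir (m : ℕ) : (25 * m) ^ m ≤ m ! * 68 ^ m := by
  have h1 := Real.pow_div_factorial_le_exp (m : ℝ) (Nat.cast_nonneg m) m
  rw [div_le_iff₀ (by positivity), ← Real.exp_one_pow] at h1
  have h2 : Real.exp 1 * 25 ≤ 68 := by linarith [Real.exp_one_lt_d9]
  have h3 : ((25 * m : ℝ)) ^ m ≤ m ! * 68 ^ m := by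
    calc ((25 * m : ℝ)) ^ m = 25 ^ m * m ^ m := mul_pow _ _ _
      _ ≤ 25 ^ m * (Real.exp 1 ^ m * m !) := by gcongr
      _ = m ! * (Real.exp 1 * 25) ^ m := by rw [mul_pow]; ring
      _ ≤ _ := by gcongr
  exact_mod_cast h3

theorem key {m E : ℕ} (h1 : 2 ^ E ≤ m) (h2 : 2403 ≤ m) : 68 ^ 4 * 2 ^ (3 * E + 6) ≤ (25 * m) ^ 4 := by
  rw [pow_add, mul_comm 3 E, pow_mul]
  rcases le_or_gt E 11 with h | h
  · calc 68 ^ 4 * ((2 ^ E) ^ 3 * 2 ^ 6) ≤ 68 ^ 4 * ((2 ^ 11) ^ 3 * 2 ^ 6) := by gcongr; norm_num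
      _ ≤ (25 * 2403) ^ 4 := by norm_num
      _ ≤ _ := by gcongr
  · have h3 : 2 ^ 12 ≤ m := (Nat.pow_le_pow_right (by norm_num) h).trans h1
    calc 68 ^ 4 * ((2 ^ E) ^ 3 * 2 ^ 6) ≤ 68 ^ 4 * (m ^ 3 * 2 ^ 6) := by gcongr
      _ = (68 ^ 4 * 2 ^ 6) * m ^ 3 := by ring
      _ ≤ (25 ^ 4 * 2 ^ 12) * m ^ 3 := Nat.mul_le_mul_right _ (by norm_num)
      _ ≤ (25 ^ 4 * m) * m ^ 3 := by gcongr
      _ = _ := by ring

theorem jobNumL : JobNumL := by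
  intro h hh a t e w p
  set E := Nat.log 2 (2 * h) with hE
  set X := a + (a - t) * (kap h t + 1) + e * w with hX
  have k1 : kap h t ≤ E + 1 := by
    unfold kap
    split_ifs
    · exact (min_le_right _ _).trans (Nat.le_succ _)
    · exact le_rfl
  have k2 : e * w ≤ E * h := by
    rcases p.ew with rfl | k
    · simp
    rcases Nat.eq_zero_or_pos w with rfl | w0
    · simp
    rcases Nat.eq_zero_or_pos e with rfl | e0
    · simp
    have : 2 ^ 1 ≤ 2 ^ e := Nat.pow_le_pow_right (by norm_num) e0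
    exact Nat.mul_le_mul (Nat.le_log_of_pow_le (by norm_num) (by omega)) (by omega)
  have k3 : X + 3 ≤ (3 * E + 6) * h := by
    have h1 : (a - t) * (kap h t + 1) ≤ a * (E + 2) := Nat.mul_le_mul (Nat.sub_le _ _) (by omega)
    have h2 : (a + 1) * (E + 3) ≤ 2 * h * (E + 3) := Nat.mul_le_mul_right _ p.ah
    nlinarith
  have k4 := key (m := 2 * h + 1) (E := E)
    ((Nat.pow_log_le_self 2 (by omega)).trans (Nat.le_succ _)) (by omega)
  have k5 : (2 * h + 1) ^ 2 * 2 ^ X < (2 * h + 1)! ^ 2 := by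
    have s := Nat.pow_le_pow_left (stir (2 * h + 1)) 2
    rw [mul_pow _ _ 2] at s
    refine Nat.lt_of_mul_lt_mul_right (lt_of_lt_of_le ?_ s)
    calc (2 * h + 1) ^ 2 * 2 ^ X * (68 ^ (2 * h + 1)) ^ 2
        = 4624 * ((2 * h + 1) ^ 2 * ((68 ^ 4) ^ h * 2 ^ X)) := by rw [← pow_mul 68 4]; ring
      _ < 5000 * ((2 * h + 1) ^ 2 * ((68 ^ 4) ^ h * 2 ^ X)) := by gcongr; norm_num
      _ = 625 * ((2 * h + 1) ^ 2 * ((68 ^ 4) ^ h * 2 ^ (X + 3))) := by ring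
      _ ≤ 625 * ((2 * h + 1) ^ 2 * ((68 ^ 4) ^ h * 2 ^ ((3 * E + 6) * h))) := by gcongr; norm_num
      _ = 625 * ((2 * h + 1) ^ 2 * (68 ^ 4 * 2 ^ (3 * E + 6)) ^ h) := by rw [mul_pow _ _ h, ← pow_mul 2]
      _ ≤ 625 * ((2 * h + 1) ^ 2 * ((25 * (2 * h + 1)) ^ 4) ^ h) := by gcongr
      _ = _ := by
        rw [← pow_mul, ← pow_mul, show (2 * h + 1) * 2 = 2 + 4 * h by ring, pow_add, mul_pow 25 _ 2,
          mul_assoc]
        rfl
  calc (2 * h + 1) ^ 2 * (2 ^ h * h !) ^ 4 * 2 ^ X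
      = (2 * h + 1) ^ 2 * 2 ^ X * ((2 ^ h * h !) ^ 2) ^ 2 := by ring
    _ ≤ (2 * h + 1) ^ 2 * 2 ^ X * (2 * h + 1)! ^ 2 := by gcongr; exact sq_le h
    _ < (2 * h + 1)! ^ 2 * (2 * h + 1)! ^ 2 := by gcongr
    _ = _ := by ring

end H81.IVNumL
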