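import Cfsg.Agent.H52.SimXSSpec
import Cfsg.Agent.H14.Quasi

/-! # S3694 (tower SIM), chapter XS, job Sm: the invariant matrix rings are small. -/

set_option autoImplicit false

namespace H81.SimXSSm

open Subgroup Cfsg H98 Matrix H0.Sim H52.XS
open scoped commutatorElement

theorem quasi_comm {A B : Type} [Group A] [Group B] (e : A ≃* B)
    (h : IsQuasisimple (commutator B)) : IsQuasisimple (commutator A) := by
  refine H14.quasi_of_mulEquiv h ((e.symm.subgroupMap _).trans (MulEquiv.subgroupCongr ?_))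
  rw [map_commutator_eq, MonoidHom.range_eq_top.2 e.symm.surjective]
  rfl

theorem job : H52.XS.JobSm := by
  intro nc qsl qsu n F _ _ u q p Θ H Q E c R k iv ns ⟨_, K, _, _, hK, ⟨e⟩⟩ hk
  by_contra hs
  have qs : IsQuasisimple (commutator (Gam k K u q)) := by
    have hc := hK.trans c.par.card
    cases u
    · exact quasi_comm (A := (⊤ : Subgroup (GL (Fin k) K))) topEquiv
        (qsl k K hk fun h => hs (.inl ⟨h.1, by simpa [hc] using h.2⟩))
    · exact qsu k K q (by simpa using hc) hk (fun h => hs (.inl h)) fun h => hs (.inr ⟨rfl, h⟩)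
  have qL : IsQuasisimple (⁅GR u q R, GR u q R⁆ : Subgroup (GL (Fin n) F)) :=
    H14.quasi_of_mulEquiv (quasi_comm e qs)
      ((equivMapOfInjective _ _ (GR u q R).subtype_injective).trans
        (MulEquiv.subgroupCongr (map_subtype_commutator _)))
  have LG : ⁅GR u q R, GR u q R⁆ ≤ GR u q R := commutator_le.2 fun a ha b hb =>
    mul_mem (mul_mem (mul_mem ha hb) (inv_mem ha)) (inv_mem hb)
  have LS : ⁅GR u q R, GR u q R⁆ ≤ Sg n F u q :=
    le_inf (LG.trans inf_le_left) (commutator_le.2 fun a _ b _ => by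
      rw [MonoidHom.mem_ker, map_commutatorElement, commutatorElement_eq_one_iff_mul_comm,
        mul_comm])
  refine nc n F u q p Θ H Q E _ c (fun x hx => c.mp _ iv ns x (LS hx) fun m hm => ?_) qL
    (le_normalizer_commutator ?_ ?_)
  · have := (Submonoid.mem_units_iff _ _).1 (LG hx).2
    exact R.mul_mem (R.mul_mem this.1 hm) this.2
  all_goals
    intro y hy
    have yH := c.QH hy
    have st : ∀ m ∈ R, (y : Mt n F) * m * ((y⁻¹ : GL (Fin n) F) : Mt n F) ∈ R := fun m hm => by
      have := iv _ (c.inn y yH) m hm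
      simpa [th] using this
    refine mem_normalizer_fintype fun x hx => ⟨(Gam n F u q).mul_mem
      ((Gam n F u q).mul_mem (c.HG yH) hx.1) ((Gam n F u q).inv_mem (c.HG yH)),
      (Submonoid.mem_units_iff _ _).2 ?_⟩
    have := (Submonoid.mem_units_iff _ _).1 hx.2
    refine ⟨st _ this.1, ?_⟩
    rw [show (y * x * y⁻¹)⁻¹ = y * x⁻¹ * y⁻¹ by group]
    exact st _ this.2

end H81.SimXSSm
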