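import Cfsg.Agent.H53.SimXASpec

/-! Tower SIM, chapter XA, job PRT: the part of an element on a small block. -/

set_option autoImplicit false

namespace H81.SimXAPrt

open Subgroup Cfsg H98 Matrix H0.Sim H53.XA

theorem key (fr : FR) (emb : EMB) (pt : PT) {n : ℕ} {F : Type} [Field F] [Fintype F] {u : Bool}
    {q b : ℕ} {f : Mt n F} (fq : Fq F u q) (ip : Ip u q f) (hb : f.rank = b) :
    ∃ (P : Matrix (Fin n) (Fin b) F) (P' : Matrix (Fin b) (Fin n) F)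
      (ψ : Cz u q f →* Gam b F u q), P * P' = f ∧
      (∀ y : Cz u q f, ((y : GL (Fin n) F) : Mt n F) * f =
        P * ((ψ y : GL (Fin b) F) : Mt b F) * P') ∧
      (∀ y : Cz u q f, Rp (y : GL (Fin n) F) → Rp (ψ y : GL (Fin b) F)) ∧
      ∀ y : Cz u q f, (∀ h ∈ Sg n F u q ⊓ Gf u q f, Commute (y : GL (Fin n) F) (h * y * h⁻¹)) →
        ∀ h ∈ Sg b F u q, Commute (ψ y : GL (Fin b) F) (h * ψ y * h⁻¹) := by
  obtain ⟨P, P', hP⟩ := fr n F u q b f fq ip hb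
  obtain ⟨φ, hφ⟩ := emb n F u q b f P P' fq hP
  obtain ⟨-, ⟨π, hπ⟩, le, -⟩ := pt n F u q f fq ip
  refine ⟨P, P', φ.symm.toMonoidHom.comp π, hP.r, fun y => ?_, fun y hy => ?_, fun y hy h hh => ?_⟩
  · have := (hφ (φ.symm (π y))).1
    rw [φ.apply_symm_apply, hπ, add_comm] at this
    exact add_left_cancel this
  · unfold Rp at hy ⊢
    rw [orderOf_coe] at hy ⊢
    exact hy.coprime_dvd_left (orderOf_map_dvd _ y)
  · let h' : Cz u q f := ⟨φ ⟨h, hh.1⟩, le (φ ⟨h, hh.1⟩).2⟩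
    have e : π h' = φ ⟨h, hh.1⟩ := Subtype.ext (Units.ext (by
      rw [hπ, ← (φ ⟨h, hh.1⟩).2.2.2, ← mul_add, add_sub_cancel, mul_one]))
    have e' : φ.symm.toMonoidHom.comp π h' = ⟨h, hh.1⟩ := by
      rw [MonoidHom.comp_apply, e]
      exact φ.symm_apply_apply _
    have c : Commute y (h' * y * h'⁻¹) :=
      Subtype.ext (hy _ ⟨(hφ ⟨h, hh.1⟩).2.2 hh, (φ ⟨h, hh.1⟩).2⟩)
    have c' := c.map (φ.symm.toMonoidHom.comp π)
    rw [map_mul, map_mul, map_inv, e'] at c'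
    exact congrArg Subtype.val c'

theorem job : H53.XA.JPRT := by
  intro fr emb pt cp2 cp3 c22 n F _ _ u q f y fq ip hy rp
  have fin : ∀ {b : ℕ} (P : Matrix (Fin n) (Fin b) F) (P' : Matrix (Fin b) (Fin n) F) (d : Mt b F),
      P * P' = f → (y : Mt n F) * f = P * d * P' → Sc d → ∃ c : F, (y : Mt n F) * f = c • f := by
    rintro b P P' _ e1 e2 ⟨c, rfl⟩
    refine ⟨c, ?_⟩
    rw [e2, Matrix.scalar_apply, ← Matrix.smul_one_eq_diagonal, Matrix.mul_smul, Matrix.mul_one,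
      Matrix.smul_mul, e1]
  refine ⟨fun h hc => ?_, ?_⟩
  · rcases h with ⟨hb, rfl⟩ | ⟨rfl, hb, rfl⟩
    · obtain ⟨P, P', ψ, k1, k2, k3, k4⟩ := key fr emb pt fq ip hb
      exact fin P P' _ k1 (k2 ⟨y, hy⟩) (cp2 F u _ fq (k3 ⟨y, hy⟩ rp) (k4 ⟨y, hy⟩ hc))
    · obtain ⟨P, P', ψ, k1, k2, k3, k4⟩ := key fr emb pt fq ip hb
      exact fin P P' _ k1 (k2 ⟨y, hy⟩)
        (cp3 F _ fq (ψ ⟨y, hy⟩).2 (k3 ⟨y, hy⟩ rp) (k4 ⟨y, hy⟩ hc))
  · rintro rfl rfl hb ne y' hy' rp'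
    obtain ⟨P, P', ψ, k1, k2, k3, -⟩ := key fr emb pt fq ip hb
    have a1 : (y : Mt n F) * f = _ := k2 ⟨y, hy⟩
    have a2 : (y' : Mt n F) * f = _ := k2 ⟨y', hy'⟩
    obtain ⟨a, c, e⟩ := c22 F (ψ ⟨y, hy⟩) (ψ ⟨y', hy'⟩) (by simpa [Fq] using fq) (k3 ⟨y, hy⟩ rp)
      (k3 ⟨y', hy'⟩ rp') fun e => ne (by rw [a1, e, Units.val_one, Matrix.mul_one, k1])
    refine ⟨a, c, ?_⟩
    rw [a2, e, a1, Matrix.mul_add, Matrix.add_mul, Matrix.mul_smul, Matrix.mul_smul,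
      Matrix.mul_one, Matrix.smul_mul, Matrix.smul_mul, k1]

end H81.SimXAPrt
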