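/- S3275, chapter K: block embeddings of matrices and real elements modulo the centre. -/
import Cfsg.Agent.H48.DPTop

set_option autoImplicit false

namespace H81.DPK
open Subgroup Cfsg H48.DP Matrix

/-- A real element of prime order `p > 3` survives modulo the centre. -/
theorem nd_center {G : Type*} [Group G] [Finite G] {p : ℕ} (hp : p.Prime) (h3 : 3 < p) {x g : G}
    (h5 : x ^ p = 1) (h1 : x ≠ 1) (hg : x * g * x = g) : ¬ ND (G ⧸ center G) := fun h => by
  have := Fact.mk hp
  have hg' : g * x * g⁻¹ = x⁻¹ := by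
    rw [eq_inv_iff_mul_eq_one, ← mul_left_inj g]
    calc g * x * g⁻¹ * x * g = g * x * g⁻¹ * (x * g * x) * x⁻¹ := by group
      _ = 1 * g := by rw [hg]; group
  refine h.not_real hp h3 (x := (x : G ⧸ center G)) (g := (g : G ⧸ center G))
    (orderOf_eq_prime (by rw [← QuotientGroup.mk_pow, h5]; rfl) fun hx => h1 ?_)
    (by rw [← QuotientGroup.mk_inv, ← QuotientGroup.mk_mul, ← QuotientGroup.mk_mul, hg']; rfl)
  rw [mem_center_iff.1 ((QuotientGroup.eq_one_iff x).1 hx) g, mul_inv_cancel_right] at hg'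
  have h2 : x ^ 2 = 1 := by rw [pow_two]; exact mul_eq_one_iff_eq_inv.2 hg'
  exact orderOf_eq_one_iff.1 (Nat.eq_one_of_dvd_coprimes
    ((Nat.coprime_primes Nat.prime_two hp).2 (by omega)) (orderOf_dvd_of_pow_eq_one h2)
    (orderOf_dvd_of_pow_eq_one h5))

/-- The same inside the commutator subgroup. -/
theorem nd_comm {G : Type*} [Group G] [Finite G] {x g a b : G}
    (h5 : x ^ 5 = 1) (h1 : x ≠ 1) (hg : x * g * x = g) (hab : a * b = g * (b * a)) :
    ¬ ND (commutator G ⧸ center (commutator G)) := by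
  have hc : ∀ s t : G, s * t * s⁻¹ * t⁻¹ ∈ commutator G := fun s t =>
    commutator_mem_commutator (mem_top s) (mem_top t)
  have h2 : g ∈ commutator G := by
    rw [show g = a * b * a⁻¹ * b⁻¹ by rw [hab]; group]
    exact hc a b
  have h3 : x ∈ commutator G := by
    have e : x * g * x⁻¹ * g⁻¹ = x ^ 2 := by
      calc x * g * x⁻¹ * g⁻¹ = x * g * (g * x)⁻¹ := by group
        _ = x * (x * g * x) * (g * x)⁻¹ := by rw [hg]
        _ = x ^ 2 := by rw [pow_two]; group
    rw [show x = (x ^ 2) ^ 3 by rw [← pow_mul, show 2 * 3 = 5 + 1 from rfl, pow_succ, h5, one_mul],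
      ← e]
    exact pow_mem (hc x g) 3
  exact nd_center (p := 5) (by norm_num) (by norm_num) (x := ⟨x, h3⟩) (g := ⟨g, h2⟩)
    (Subtype.ext h5) (fun h => h1 (congrArg Subtype.val h)) (Subtype.ext hg)

section blk
variable {κ ι R : Type*}

/-- The splitting of the index set along an embedding. -/
noncomputable def spl (j : κ ↪ ι) : κ ⊕ {i // i ∉ Set.range j} ≃ ι :=
  open Classical in
  (Equiv.sumCongr (Equiv.ofInjective j j.injective) (Equiv.refl _)).trans
    (Equiv.sumCompl (· ∈ Set.range j))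

theorem spl_inl (j : κ ↪ ι) (a : κ) : spl j (.inl a) = j a := rfl

theorem spl_inr (j : κ ↪ ι) (a : {i // i ∉ Set.range j}) : spl j (.inr a) = a := rfl

variable [Fintype κ] [DecidableEq κ] [Fintype ι] [DecidableEq ι] [CommRing R]

/-- Extension of a matrix by the identity. -/
noncomputable def blk (j : κ ↪ ι) : Matrix κ κ R →* Matrix ι ι R where
  toFun A := (fromBlocks A 0 0 1).submatrix (spl j).symm (spl j).symm
  map_one' := by rw [fromBlocks_one, submatrix_one_equiv]
  map_mul' A B := by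
    rw [submatrix_mul_equiv, fromBlocks_multiply]
    simp

theorem blk_apply (j : κ ↪ ι) (A : Matrix κ κ R) (a b : κ) : blk j A (j a) (j b) = A a b := by
  change fromBlocks A 0 0 1 ((spl j).symm (spl j (.inl a))) ((spl j).symm (spl j (.inl b))) = _
  rw [Equiv.symm_apply_apply, Equiv.symm_apply_apply, fromBlocks_apply₁₁]

theorem blk_injective (j : κ ↪ ι) : Function.Injective (blk j : Matrix κ κ R → _) :=
  fun A B h => Matrix.ext fun a b => by rw [← blk_apply j A, h, blk_apply]

theorem blk_det (j : κ ↪ ι) (A : Matrix κ κ R) : (blk j A).det = A.det := by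
  change ((fromBlocks A 0 0 1).submatrix (spl j).symm (spl j).symm).det = _
  rw [det_submatrix_equiv_self, det_fromBlocks_zero₂₁, det_one, mul_one]

theorem blk_mulVec (j : κ ↪ ι) (A : Matrix κ κ R) (v : ι → R) :
    (blk j A *ᵥ v) ∘ j = A *ᵥ (v ∘ j) ∧ ∀ i ∉ Set.range j, (blk j A *ᵥ v) i = v i := by
  have h : blk j A *ᵥ v = (Sum.elim (A *ᵥ (v ∘ j)) fun k : {i // i ∉ Set.range j} => v k) ∘
      (spl j).symm := by
    change (fromBlocks A 0 0 1).submatrix (spl j).symm (spl j).symm *ᵥ v = _
    rw [submatrix_mulVec_equiv, fromBlocks_mulVec]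
    simp only [zero_mulVec, add_zero, zero_add, one_mulVec, Equiv.symm_symm]
    rfl
  refine ⟨funext fun a => ?_, fun i hi => ?_⟩
  · rw [h, Function.comp_apply, ← spl_inl, Function.comp_apply, Equiv.symm_apply_apply]
    rfl
  · rw [h, show i = spl j (.inr ⟨i, hi⟩) from rfl, Function.comp_apply, Equiv.symm_apply_apply]
    rfl

end blk

end H81.DPK
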