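/- S3275, chapter K: passing to smaller classical groups. -/
import Cfsg.Agent.H81.DPKit

set_option autoImplicit false

namespace H81.DPK
open Subgroup Cfsg H48.DP Matrix

theorem nd_sub_center {G Y : Type*} [Group G] [Group Y] (f : Y →* G) (hf : Function.Injective f)
    (h : ND (G ⧸ center G)) : ND (Y ⧸ center Y) := by
  let φ : Y →* G ⧸ center G := (QuotientGroup.mk' _).comp f
  have hk : φ.ker ≤ center Y := fun y hy => mem_center_iff.2 fun x => hf (by
    rw [map_mul, map_mul]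
    exact mem_center_iff.1 ((QuotientGroup.eq_one_iff (f y)).1 hy) _)
  have h1 : ND (Y ⧸ φ.ker) := h.of_injective _ (QuotientGroup.kerLift_injective φ)
  refine h1.of_surjective (QuotientGroup.map φ.ker (center Y) (MonoidHom.id Y) hk) fun y => ?_
  obtain ⟨y, rfl⟩ := QuotientGroup.mk_surjective y
  exact ⟨(y : Y ⧸ φ.ker), rfl⟩

theorem nd_center_congr {G Y : Type*} [Group G] [Group Y] (e : G ≃* Y)
    (h : ND (G ⧸ center G)) : ND (Y ⧸ center Y) :=
  nd_sub_center e.symm.toMonoidHom e.symm.injective h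

theorem exists_field {K : Type} [Field K] [Fintype K] {r : ℕ} (h : Fintype.card K = r ^ 2) :
    ∃ (F : Type) (_ : Field F) (_ : Fintype F), Fintype.card F = r := by
  obtain ⟨p, hp⟩ := CharP.exists K
  obtain ⟨n, hp', hn⟩ := FiniteField.card K p
  obtain ⟨m, -, rfl⟩ := (Nat.dvd_prime_pow hp').1
    (show r ∣ p ^ (n : ℕ) from hn ▸ h ▸ Dvd.intro_left r (sq r).symm)
  have hm : m ≠ 0 := by
    rintro rfl
    have := Fintype.one_lt_card (α := K)
    simp at h
    omega
  have := Fact.mk hp'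
  let _ : Fintype (GaloisField p m) := Fintype.ofFinite _
  exact ⟨GaloisField p m, inferInstance, inferInstance, by
    rw [← Nat.card_eq_fintype_card, GaloisField.card p m hm]⟩

section blk
variable {κ ι R : Type*} [Fintype κ] [DecidableEq κ] [Fintype ι] [DecidableEq ι] [CommRing R]

/-- The block embedding of special linear groups. -/
noncomputable def slBlk (j : κ ↪ ι) : SpecialLinearGroup κ R →* SpecialLinearGroup ι R where
  toFun A := ⟨blk j A.1, by rw [blk_det, A.2]⟩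
  map_one' := Subtype.ext (map_one (blk j))
  map_mul' A B := Subtype.ext (map_mul (blk j) A.1 B.1)

theorem slBlk_injective (j : κ ↪ ι) : Function.Injective (slBlk (R := R) j) :=
  fun _ _ h => Subtype.ext (blk_injective j (congrArg Subtype.val h))

omit [CommRing R] in
theorem sum_spl {M : Type*} [AddCommMonoid M] (j : κ ↪ ι) (f : ι → M) :
    ∑ i, f i = ∑ a, f (j a) + ∑ k : {i // i ∉ Set.range j}, f k := by
  rw [← (spl j).sum_comp, Fintype.sum_sum_type]
  rfl

end blk

variable {F : Type} [Field F]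

theorem nd_psl_le {m n : ℕ} (h : m ≤ n) (hn : ND (ProjectiveSpecialLinearGroup (Fin n) F)) :
    ND (ProjectiveSpecialLinearGroup (Fin m) F) :=
  nd_sub_center _ (slBlk_injective (Fin.castLEEmb h)) hn

theorem nd_psu_le {m n q : ℕ} (h : m ≤ n) (hn : ND (PSU n F q)) : ND (PSU m F q) := by
  refine nd_sub_center (((slBlk (Fin.castLEEmb h)).comp (SU m F q).subtype).codRestrict (SU n F q)
    fun A u v => ?_) (fun A B e => Subtype.ext (slBlk_injective (Fin.castLEEmb h)
      (congrArg Subtype.val e))) hn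
  obtain ⟨a1, a2⟩ := blk_mulVec (Fin.castLEEmb h) A.1.1 u
  obtain ⟨b1, b2⟩ := blk_mulVec (Fin.castLEEmb h) A.1.1 v
  change hermForm n F q (blk _ A.1.1 *ᵥ u) (blk _ A.1.1 *ᵥ v) = _
  rw [hermForm, hermForm, sum_spl (Fin.castLEEmb h), sum_spl (Fin.castLEEmb h)]
  congr 1
  · have := A.2 (u ∘ Fin.castLEEmb h) (v ∘ Fin.castLEEmb h)
    change hermForm m F q (A.1.1 *ᵥ _) (A.1.1 *ᵥ _) = _ at this
    rw [← a1, ← b1] at this
    exact this
  · exact Finset.sum_congr rfl fun k _ => by rw [a2 _ k.2, b2 _ k.2]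

/-- A copy of `A₅` in the isometry group of a summand. -/
theorem nd_omega' [Finite F] {κ ι : Type} [Fintype κ] [DecidableEq κ] [Fintype ι] [DecidableEq ι]
    (q₀ : (κ → F) → F) (q : (ι → F) → F) (j : κ ↪ ι)
    (hq : ∀ v w : ι → F, (∀ i ∉ Set.range j, v i = w i) → q₀ (v ∘ j) = q₀ (w ∘ j) → q v = q w)
    (a b x g : Matrix κ κ F)
    (hp : ∀ v, q₀ (a *ᵥ v) = q₀ v ∧ q₀ (b *ᵥ v) = q₀ v ∧ q₀ (x *ᵥ v) = q₀ v ∧ q₀ (g *ᵥ v) = q₀ v)
    (hr : a * (a * a) = 1 ∧ b * b = 1 ∧ x * (x * x * x * x) = 1 ∧ g * g = 1 ∧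
      x * g * x = g ∧ a * b = g * (b * a) ∧ x ≠ 1) : ¬ ND (POmega F q) := by
  let c : isometryGroup F q →* Matrix ι ι F := (Units.coeHom _).comp (isometryGroup F q).subtype
  have hc : Function.Injective c := Units.coeHom_injective.comp Subtype.val_injective
  have ex : ∀ A : Matrix κ κ F, (∀ v, q₀ (A *ᵥ v) = q₀ v) → ∀ B, A * B = 1 →
      ∃ s, c s = blk j A := by
    intro A hA B hB
    refine ⟨⟨⟨blk j A, blk j B, by rw [← map_mul, hB, map_one], by
      rw [← map_mul, mul_eq_one_comm.1 hB, map_one]⟩, fun v _ => hq _ _ (blk_mulVec j _ v).2 ?_⟩, rfl⟩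
    exact ((congrArg q₀ (blk_mulVec j _ v).1).trans (hA _))
  obtain ⟨r1, r2, r3, r4, r5, r6, r7⟩ := hr
  obtain ⟨a', ha⟩ := ex a (fun v => (hp v).1) _ r1
  obtain ⟨b', hb⟩ := ex b (fun v => (hp v).2.1) _ r2
  obtain ⟨x', hx⟩ := ex x (fun v => (hp v).2.2.1) _ r3
  obtain ⟨g', hg⟩ := ex g (fun v => (hp v).2.2.2) _ r4
  refine nd_comm (x := x') (g := g') (a := a') (b := b') (hc ?_) (fun h => ?_) (hc ?_) (hc ?_)
  · rw [map_pow, hx, ← map_pow, map_one, ← map_one (blk j), ← r3]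
    simp only [pow_succ, pow_zero, one_mul, mul_assoc]
  · rw [h, map_one, ← map_one (blk j)] at hx
    exact r7 (blk_injective j hx).symm
  · simp only [map_mul, hx, hg]
    rw [← map_mul, ← map_mul, r5]
  · simp only [map_mul, ha, hb, hg]
    rw [← map_mul, ← map_mul, ← map_mul, r6]

end H81.DPK
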