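/- S3275, chapter K, job KAL: the alternating and linear groups. -/
import Cfsg.Agent.H81.DPKit2
import Cfsg.Agent.H55.Basic
import Cfsg.Agent.S0255

set_option autoImplicit false

namespace H81.DPK
open Subgroup Cfsg H48.DP Matrix

universe u

/-- A five-cycle and an inverting involution. -/
def a5x : alternatingGroup (Fin 5) := ⟨finRotate 5, Equiv.Perm.mem_alternatingGroup.2 (by decide)⟩
def a5g : alternatingGroup (Fin 5) :=
  ⟨Equiv.swap 1 4 * Equiv.swap 2 3, Equiv.Perm.mem_alternatingGroup.2 (by decide)⟩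

theorem not_nd_alt {n : ℕ} (hn : 5 ≤ n) : ¬ ND (alternatingGroup (Fin n)) := fun h => by
  let j := (Fin.castLEEmb hn).toEquivRange
  let f : alternatingGroup (Fin 5) →* alternatingGroup (Fin n) :=
    ((Equiv.Perm.extendDomainHom j).comp (alternatingGroup (Fin 5)).subtype).codRestrict _
      fun s => Equiv.Perm.mem_alternatingGroup.2
        ((Equiv.Perm.sign_extendDomain _ _).trans (Equiv.Perm.mem_alternatingGroup.1 s.2))
  have hf : Function.Injective f := fun a b e =>
    Subtype.ext (Equiv.Perm.extendDomainHom_injective j (congrArg Subtype.val e))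
  exact nd_center (p := 5) (by norm_num) (by norm_num)
    (x := a5x) (g := a5g) (by decide) (by decide) (by decide)
    ((h.of_injective f hf).quot _)

variable {F : Type} [Field F]

theorem nd_sl_map [Finite F] {R : Type} [CommRing R] (φ : R →+* F) {n p : ℕ} (hp : p.Prime)
    (h3 : 3 < p) (x g : SpecialLinearGroup (Fin n) R) (h : x ^ p = 1 ∧ x * g * x = g)
    (a b : Fin n) (hab : a ≠ b) (hx : x.1 a b = 1) :
    ¬ ND (ProjectiveSpecialLinearGroup (Fin n) F) := by
  refine nd_center hp h3 (x := SpecialLinearGroup.map φ x) (g := SpecialLinearGroup.map φ g)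
    (by rw [← map_pow, h.1, map_one]) (fun e => ?_) (by rw [← map_mul, ← map_mul, h.2])
  have h4 : φ (x.1 a b) = (1 : Matrix (Fin n) (Fin n) F) a b :=
    congrArg (fun s : SpecialLinearGroup (Fin n) F => s.1 a b) e
  rw [hx, map_one, one_apply_ne hab] at h4
  exact one_ne_zero h4

/-- Explicit real elements of orders five and seven. -/
def l4x : SpecialLinearGroup (Fin 4) ℤ :=
  ⟨!![0, 0, 0, -1; 1, 0, 0, -1; 0, 1, 0, -1; 0, 0, 1, -1], by decide +kernel⟩
def l4g : SpecialLinearGroup (Fin 4) ℤ :=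
  ⟨!![0, 0, 0, 1; 0, 0, 1, 0; 0, 1, 0, 0; 1, 0, 0, 0], by decide +kernel⟩
def l3x : SpecialLinearGroup (Fin 3) (ZMod 7) := ⟨!![1, 1, 0; 0, 1, 0; 0, 0, 1], by decide +kernel⟩
def l3g : SpecialLinearGroup (Fin 3) (ZMod 7) :=
  ⟨!![-1, 0, 0; 0, 1, 0; 0, 0, -1], by decide +kernel⟩

theorem rel_l3 : l3x ^ 7 = 1 ∧ l3x * l3g * l3x = l3g := by decide +kernel

theorem not_nd_psl4 [Finite F] : ¬ ND (ProjectiveSpecialLinearGroup (Fin 4) F) :=
  nd_sl_map (Int.castRingHom F) (p := 5) (by norm_num) (by norm_num) l4x l4g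
    (by decide +kernel) 1 0 (by decide) rfl

theorem not_nd_psl37 [Fintype F] (hF : Fintype.card F = 7) :
    ¬ ND (ProjectiveSpecialLinearGroup (Fin 3) F) :=
  have := Fact.mk (by norm_num : Nat.Prime 7)
  have : CharP F 7 := charP_of_card_eq_prime hF
  nd_sl_map (ZMod.castHom (dvd_refl 7) F) (p := 7) (by norm_num) (by norm_num) l3x l3g rel_l3
    0 1 (by decide) rfl

theorem jobKAL : JobKAL.{u} := by
  intro l X _ _ hX
  refine ⟨fun ⟨n, hn, ⟨e⟩⟩ => not_nd_alt hn (hX.of_equiv e), ?_⟩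
  rintro ⟨F, _, _, n, hn, h2, ⟨e⟩⟩
  have h := hX.of_equiv e
  have hq := l F (nd_psl_le hn h)
  have h1 := Fintype.one_lt_card (α := F)
  have h4 : n < 4 := not_le.1 fun h4 => not_nd_psl4 (nd_psl_le h4 h)
  have := Fact.mk (by norm_num : Nat.Prime 7)
  obtain rfl | rfl : n = 2 ∨ n = 3 := by omega
  · have h7 : Fintype.card F = 7 := by have := h2 rfl; omega
    exact .inl ⟨e.trans (H55.pslCongr (FiniteField.ringEquivOfCardEq (h7.trans (ZMod.card 7).symm)))⟩
  · obtain h7 | h7 | h7 : Fintype.card F = 2 ∨ Fintype.card F = 3 ∨ Fintype.card F = 7 := by omega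
    · obtain ⟨e'⟩ := Cfsg.Agent.S0255.result (ZMod.card 7) h7
      exact .inl ⟨e.trans e'.symm⟩
    · exact .inr (.inl
        ⟨e.trans (H55.pslCongr (FiniteField.ringEquivOfCardEq (h7.trans (ZMod.card 3).symm)))⟩)
    · exact absurd h (not_nd_psl37 h7)

end H81.DPK
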