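/- S3275, chapter K, job KO: the orthogonal groups contain a real element of order five. -/
import Cfsg.Agent.H81.DPKit

set_option autoImplicit false

namespace H81.DPK
open Subgroup Cfsg H48.DP Matrix

universe u

/-- Generators of `A₅` on the exterior square of the root lattice `A₄`. -/
def oa : Matrix (Fin 6) (Fin 6) ℤ := !![0, 0, 1, 0, 0, 0; 1, 0, 0, 0, 0, 0; 0, 1, 0, 0, 0, 0;
  0, 0, 0, 0, 0, 1; 0, 0, 0, 1, 0, 0; 0, 0, 0, 0, 1, 0]
def ob : Matrix (Fin 6) (Fin 6) ℤ := !![-1, 0, 0, 0, 0, 0; 0, 0, 0, 0, -1, 0; 0, 0, 0, 0, 0, 1;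
  0, 0, 0, -1, 0, 0; 0, -1, 0, 0, 0, 0; 0, 0, 1, 0, 0, 0]
def ox : Matrix (Fin 6) (Fin 6) ℤ := !![0, 0, 1, 0, 0, 0; 0, 0, 0, 0, -1, 0; 0, 0, 0, 1, 0, 0;
  0, 0, 0, 1, 1, 1; 0, -1, 1, -1, 0, 0; 1, 0, -1, 0, -1, 0]
def og : Matrix (Fin 6) (Fin 6) ℤ := !![0, 0, 0, -1, 0, 0; 0, 0, 0, 0, 1, 0; 0, 0, -1, 0, 0, 0;
  -1, 0, 0, 0, 0, 0; 0, 1, 0, 0, 0, 0; 0, 0, 0, 0, 0, -1]

theorem o_rel : oa * oa * oa = 1 ∧ ob * ob = 1 ∧ ox * ox * ox * ox * ox = 1 ∧ og * og = 1 ∧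
    ox * og * ox = og ∧ oa * ob = og * (ob * oa) := by decide +kernel

variable {F : Type} [Field F]

/-- The split form in dimension six. -/
def q6 (v : Fin 6 → F) : F := v 0 * v 3 + v 1 * v 4 + v 2 * v 5

theorem q6_pres {A : Matrix (Fin 6) (Fin 6) ℤ} (hA : A = oa ∨ A = ob ∨ A = ox ∨ A = og)
    (v : Fin 6 → F) : q6 ((Int.castRingHom F).mapMatrix A *ᵥ v) = q6 v := by
  rcases hA with rfl | rfl | rfl | rfl <;>
    simp [q6, oa, ob, ox, og, mulVec, dotProduct, Fin.sum_univ_succ] <;> ring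

theorem nd_omega [Finite F] {ι : Type} [Fintype ι] [DecidableEq ι] (q : (ι → F) → F)
    (j : Fin 6 ↪ ι) (hq : ∀ v w : ι → F, (∀ i ∉ Set.range j, v i = w i) → q6 (v ∘ j) = q6 (w ∘ j) →
      q v = q w) : ¬ ND (POmega F q) := by
  let φ : Matrix (Fin 6) (Fin 6) ℤ →* Matrix ι ι F :=
    (blk j).comp (Int.castRingHom F).mapMatrix.toMonoidHom
  let c : isometryGroup F q →* Matrix ι ι F := (Units.coeHom _).comp (isometryGroup F q).subtype
  have hc : Function.Injective c := Units.coeHom_injective.comp Subtype.val_injective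
  have ex : ∀ A, (A = oa ∨ A = ob ∨ A = ox ∨ A = og) → ∀ B, A * B = 1 → ∃ s, c s = φ A := by
    intro A hA B hB
    refine ⟨⟨⟨φ A, φ B, by rw [← map_mul, hB, map_one], by
      rw [← map_mul, mul_eq_one_comm.1 hB, map_one]⟩, fun v _ => hq _ _ (blk_mulVec j _ v).2 ?_⟩, rfl⟩
    exact ((congrArg q6 (blk_mulVec j _ v).1).trans (q6_pres hA _))
  obtain ⟨r1, r2, r3, r4, r5, r6⟩ := o_rel
  obtain ⟨a, ha⟩ := ex oa (by simp) (oa * oa) (by rw [← r1, mul_assoc])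
  obtain ⟨b, hb⟩ := ex ob (by simp) ob r2
  obtain ⟨x, hx⟩ := ex ox (by simp) (ox * ox * ox * ox) (by rw [← r3]; simp only [mul_assoc])
  obtain ⟨g, hg⟩ := ex og (by simp) og r4
  refine nd_comm (x := x) (g := g) (a := a) (b := b) (hc ?_) (fun h => ?_) (hc ?_) (hc ?_)
  · rw [map_pow, hx, ← map_pow, map_one, ← map_one φ, ← r3]
    simp only [pow_succ, pow_zero, one_mul]
  · rw [h, map_one, ← map_one (blk j)] at hx
    have := congrFun (congrFun (blk_injective j hx) 0) 0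
    simp [ox] at this
  · simp only [map_mul, hx, hg]
    rw [← map_mul, ← map_mul, r5]
  · simp only [map_mul, ha, hb, hg]
    rw [← map_mul, ← map_mul, ← map_mul, r6]

theorem two_mod (k : ℕ) : 2 % (k + 2 + 1) = 2 := Nat.mod_eq_of_lt (by omega)

/-- The first three hyperbolic pairs. -/
def j6 (k : ℕ) : Fin 6 ↪ Fin (k + 3) ⊕ Fin (k + 3) :=
  ⟨![.inl 0, .inl (Fin.succ 0), .inl (Fin.succ (Fin.succ 0)), .inr 0, .inr (Fin.succ 0),
    .inr (Fin.succ (Fin.succ 0))], by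
      intro a b
      fin_cases a <;> fin_cases b <;> simp [Fin.ext_iff, two_mod]⟩

theorem plus_eq {k : ℕ} (v w : Fin (k + 3) ⊕ Fin (k + 3) → F)
    (h : ∀ i ∉ Set.range (j6 k), v i = w i) (h6 : q6 (v ∘ j6 k) = q6 (w ∘ j6 k)) :
    ∑ i, v (.inl i) * v (.inr i) = ∑ i, w (.inl i) * w (.inr i) := by
  have h1 : ∀ i : Fin k, v (.inl i.succ.succ.succ) = w (.inl i.succ.succ.succ) := fun i => h _ (by
    rintro ⟨a, ha⟩
    fin_cases a <;> simp [j6, Fin.ext_iff, two_mod] at ha)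
  have h2 : ∀ i : Fin k, v (.inr i.succ.succ.succ) = w (.inr i.succ.succ.succ) := fun i => h _ (by
    rintro ⟨a, ha⟩
    fin_cases a <;> simp [j6, Fin.ext_iff, two_mod] at ha)
  simp only [Fin.sum_univ_succ, h1, h2, ← add_assoc]
  congr 1

theorem jobKO : JobKO.{u} := by
  intro _ X _ _ hX
  refine ⟨?_, ?_, ?_⟩
  · rintro ⟨F, _, _, m, hm, -, ⟨e⟩⟩
    obtain ⟨k, rfl⟩ : ∃ k, m = k + 3 := ⟨m - 3, by omega⟩
    refine nd_omega _ ((j6 k).trans Function.Embedding.inr) (fun v w h h6 => ?_) (hX.of_equiv e)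
    rw [quadFormOdd, quadFormOdd, h (.inl ()) (by rintro ⟨a, ha⟩; simp at ha)]
    congr 1
    exact plus_eq (v ∘ Sum.inr) (w ∘ Sum.inr) (fun i hi => h _ (by
      rintro ⟨a, ha⟩
      exact hi ⟨a, Sum.inr_injective ha⟩)) h6
  · rintro ⟨F, _, _, m, hm, ⟨e⟩⟩
    obtain ⟨k, rfl⟩ : ∃ k, m = k + 3 := ⟨m - 3, by omega⟩
    exact nd_omega _ (j6 k) plus_eq (hX.of_equiv e)
  · rintro ⟨F, _, _, m, a, b, hm, -, ⟨e⟩⟩
    obtain ⟨k, rfl⟩ : ∃ k, m = k + 3 + 1 := ⟨m - 4, by omega⟩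
    refine nd_omega (quadFormMinus (k + 3) F a b) ((j6 k).trans Function.Embedding.inl)
      (fun v w h h6 => ?_) (hX.of_equiv e)
    rw [quadFormMinus, quadFormMinus, h (.inr 0) (by rintro ⟨a, ha⟩; simp at ha),
      h (.inr 1) (by rintro ⟨a, ha⟩; simp at ha)]
    congr 1
    exact plus_eq (v ∘ Sum.inl) (w ∘ Sum.inl) (fun i hi => h _ (by
      rintro ⟨a, ha⟩
      exact hi ⟨a, Sum.inl_injective ha⟩)) h6

end H81.DPK
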