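/- S3275, chapter K, job KSp: the symplectic groups. -/
import Cfsg.Agent.H81.DPKAL
import Cfsg.Agent.H54.SpBlocks
import Cfsg.Agent.H54.SpField

set_option autoImplicit false

namespace H81.DPK
open Subgroup Cfsg H48.DP Matrix

universe u

variable {F : Type} [Field F]

theorem nd_sp_map [Fintype F] {r : ℕ} (hr : r.Prime) (hF : Fintype.card F = r) {m p : ℕ}
    (hp : p.Prime) (h3 : 3 < p) (x g : Matrix (Fin m ⊕ Fin m) (Fin m ⊕ Fin m) (ZMod r))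
    (h : x * J (Fin m) (ZMod r) * xᵀ = J (Fin m) (ZMod r) ∧
      g * J (Fin m) (ZMod r) * gᵀ = J (Fin m) (ZMod r) ∧ x ^ p = 1 ∧ x * g * x = g ∧ x ≠ 1) :
    ¬ ND (PSp m F) := fun hn =>
  have := Fact.mk hr
  have : CharP F r := charP_of_card_eq_prime hF
  nd_center hp h3 (G := symplecticGroup (Fin m) (ZMod r)) (x := ⟨x, h.1⟩) (g := ⟨g, h.2.1⟩)
    (Subtype.ext h.2.2.1) (fun e => h.2.2.2.2 (congrArg Subtype.val e)) (Subtype.ext h.2.2.2.1)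
    (nd_sub_center _ (H54.spMap_injective (ZMod.castHom (dvd_refl r) F) (RingHom.injective _)) hn)

theorem not_nd_sp23 [Fintype F] (hF : Fintype.card F = 3) : ¬ ND (PSp 2 F) :=
  nd_sp_map (by norm_num) hF (p := 5) (by norm_num) (by norm_num)
    (fromBlocks !![0, 0; 0, 0] !![2, 0; 0, 2] !![1, 0; 0, 1] !![2, 1; 1, 0])
    (fromBlocks !![0, 0; 0, 0] !![2, 2; 2, 1] !![2, 2; 2, 1] !![0, 0; 0, 0]) (by decide +kernel)

theorem not_nd_sp27 [Fintype F] (hF : Fintype.card F = 7) : ¬ ND (PSp 2 F) :=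
  nd_sp_map (by norm_num) hF (p := 7) (by norm_num) (by norm_num)
    (fromBlocks !![1, 1; 0, 1] !![0, 0; 0, 0] !![0, 0; 0, 0] !![1, 0; 6, 1])
    (fromBlocks !![6, 0; 0, 1] !![0, 0; 0, 0] !![0, 0; 0, 0] !![6, 0; 0, 1]) (by decide +kernel)

theorem not_nd_sp32 [Fintype F] (hF : Fintype.card F = 2) : ¬ ND (PSp 3 F) :=
  nd_sp_map (by norm_num) hF (p := 5) (by norm_num) (by norm_num)
    (fromBlocks !![1, 0, 0; 1, 0, 0; 0, 0, 1] !![0, 1, 0; 0, 0, 0; 0, 0, 0]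
      !![0, 1, 0; 1, 1, 0; 0, 0, 0] !![0, 0, 0; 1, 0, 0; 0, 0, 1])
    (fromBlocks !![0, 0, 0; 0, 1, 0; 0, 0, 1] !![1, 0, 0; 0, 0, 0; 0, 0, 0]
      !![1, 0, 0; 0, 1, 0; 0, 0, 0] !![0, 0, 0; 0, 1, 0; 0, 0, 1]) (by decide +kernel)

theorem not_nd_sp33 [Fintype F] (hF : Fintype.card F = 3) : ¬ ND (PSp 3 F) :=
  nd_sp_map (by norm_num) hF (p := 5) (by norm_num) (by norm_num)
    (fromBlocks !![0, 0, 0; 0, 0, 0; 0, 0, 1] !![2, 0, 0; 0, 2, 0; 0, 0, 0]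
      !![1, 0, 0; 0, 1, 0; 0, 0, 0] !![2, 1, 0; 1, 0, 0; 0, 0, 1])
    (fromBlocks !![0, 0, 0; 0, 0, 0; 0, 0, 1] !![2, 2, 0; 2, 1, 0; 0, 0, 0]
      !![2, 2, 0; 2, 1, 0; 0, 0, 0] !![0, 0, 0; 0, 0, 0; 0, 0, 1]) (by decide +kernel)

theorem jobKSp : JobKSp.{u} := by
  rintro l X _ _ hX ⟨F, _, _, m, hm, h2, ⟨e⟩⟩
  have h := hX.of_equiv e
  have hl : ND (ProjectiveSpecialLinearGroup (Fin m) F) :=
    nd_sub_center (H54.spLevi.comp SpecialLinearGroup.toGL)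
      (H54.spLevi_injective.comp SpecialLinearGroup.toGL_injective) h
  have hq := l F (nd_psl_le hm hl)
  have h1 := Fintype.one_lt_card (α := F)
  have h4 : m < 4 := not_le.1 fun h4 => not_nd_psl4 (nd_psl_le h4 hl)
  obtain rfl | rfl : m = 2 ∨ m = 3 := by omega
  · obtain h7 | h7 : Fintype.card F = 3 ∨ Fintype.card F = 7 := by have := h2 rfl; omega
    exacts [not_nd_sp23 h7 h, not_nd_sp27 h7 h]
  · obtain h7 | h7 | h7 : Fintype.card F = 2 ∨ Fintype.card F = 3 ∨ Fintype.card F = 7 := by omega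
    exacts [not_nd_sp32 h7 h, not_nd_sp33 h7 h, not_nd_psl37 h7 hl]

end H81.DPK
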