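/- S3275, chapter K, job KU: the unitary groups. -/
import Cfsg.Agent.H81.DPKit2
import Cfsg.Agent.S0281
import Cfsg.Agent.S0303

set_option autoImplicit false

namespace H81.DPK
open Subgroup Cfsg H48.DP Matrix

universe u

variable {F : Type} [Field F]

theorem mem_su {p n : ℕ} [Fact p.Prime] [CharP F p] (A : SpecialLinearGroup (Fin n) (ZMod p))
    (hA : A.1ᵀ * A.1 = 1) :
    SpecialLinearGroup.map (ZMod.castHom (dvd_refl p) F) A ∈ SU n F p := fun u v => by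
  set B : Matrix (Fin n) (Fin n) F := A.1.map (ZMod.castHom (dvd_refl p) F) with hB
  have h1 : Bᵀ * B = 1 := by
    rw [hB, ← transpose_map, ← Matrix.map_mul, hA, Matrix.map_one _ (map_zero _) (map_one _)]
  have h2 : B.map (frobenius F p) = B := by
    rw [hB, Matrix.map_map, ← RingHom.coe_comp, RingHom.ext_zmod ((frobenius F p).comp _)]
  have h3 : frobenius F p ∘ (B *ᵥ v) = B *ᵥ (frobenius F p ∘ v) := funext fun i => by
    rw [Function.comp_apply, RingHom.map_mulVec, h2]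
  change (B *ᵥ u) ⬝ᵥ (frobenius F p ∘ (B *ᵥ v)) = u ⬝ᵥ (frobenius F p ∘ v)
  rw [h3, dotProduct_mulVec, vecMul_mulVec, h1, vecMul_one]

/-- An element of order seven of `SO₃(7)` and an inverting involution. -/
def x7 : SpecialLinearGroup (Fin 3) (ZMod 7) := ⟨!![2, 0, 5; 3, 5, 3; 3, 2, 3], by decide +kernel⟩
def g7 : SpecialLinearGroup (Fin 3) (ZMod 7) := ⟨!![6, 0, 0; 0, 2, 5; 0, 5, 5], by decide +kernel⟩

theorem rel7 : x7 ^ 7 = 1 ∧ x7 * g7 * x7 = g7 ∧ x7.1ᵀ * x7.1 = 1 ∧ g7.1ᵀ * g7.1 = 1 ∧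
    x7.1 1 0 ≠ 0 := by decide +kernel

theorem not_nd_psu37 [Fintype F] (hF : Fintype.card F = 7 ^ 2) : ¬ ND (PSU 3 F 7) := by
  obtain ⟨h7, hg, h1, h2, h3⟩ := rel7
  have := Fact.mk (by norm_num : Nat.Prime 7)
  have : CharP F 7 := charP_of_card_eq_prime_pow hF
  refine nd_center (p := 7) (by norm_num) (by norm_num) (x := ⟨_, mem_su x7 h1⟩)
    (g := ⟨_, mem_su g7 h2⟩) (Subtype.ext ?_) (fun h => ?_) (Subtype.ext ?_)
  · simp only [SubmonoidClass.mk_pow, OneMemClass.coe_one]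
    rw [← map_pow, h7, map_one]
  · have h4 : ZMod.castHom (dvd_refl 7) F (x7.1 1 0) = (1 : Matrix (Fin 3) (Fin 3) F) 1 0 :=
      congrArg (fun s : SU 3 F 7 => s.1.1 1 0) h
    exact h3 ((map_eq_zero _).1 (h4.trans (by simp)))
  · simp only [MulMemClass.mk_mul_mk]
    rw [← map_mul, ← map_mul, hg]

/-- The minus form in dimension four. -/
def q4 (a b : F) (s : Fin 4 → F) : F := s 0 * s 1 + (s 2 ^ 2 + a * s 2 * s 3 + b * s 3 ^ 2)

/-- A hyperbolic pair and the binary part. -/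
def j4 : Fin 4 ↪ (Fin 2 ⊕ Fin 2) ⊕ Fin 2 :=
  ⟨![.inl (.inl 0), .inl (.inr 0), .inr 0, .inr 1], by decide⟩

theorem minus_eq (a b : F) (v w : (Fin 2 ⊕ Fin 2) ⊕ Fin 2 → F)
    (h : ∀ i ∉ Set.range j4, v i = w i)
    (h4 : q4 a b (v ∘ j4) = q4 a b (w ∘ j4)) :
    quadFormMinus 2 F a b v = quadFormMinus 2 F a b w := by
  simp only [quadFormMinus, Fin.sum_univ_two]
  rw [h (.inl (.inl 1)) (by decide), h (.inl (.inr 1)) (by decide)]
  change v (.inl (.inl 0)) * v (.inl (.inr 0)) + (v (.inr 0) ^ 2 + a * v (.inr 0) * v (.inr 1) +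
    b * v (.inr 1) ^ 2) = w (.inl (.inl 0)) * w (.inl (.inr 0)) + (w (.inr 0) ^ 2 +
    a * w (.inr 0) * w (.inr 1) + b * w (.inr 1) ^ 2) at h4
  linear_combination h4

theorem not_nd_psu42 [Fintype F] (hF : Fintype.card F = 2 ^ 2) : ¬ ND (PSU 4 F 2) := fun h => by
  obtain ⟨e⟩ := Cfsg.Agent.S0303.result (ZMod.card 2) hF 1 1 (by decide)
  exact nd_omega' (q4 (1 : ZMod 2) 1) _ j4 (minus_eq 1 1)
    !![1, 0, 0, 0; 0, 1, 0, 0; 0, 0, 1, 1; 0, 0, 1, 0]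
    !![1, 0, 0, 0; 1, 1, 0, 1; 1, 0, 1, 0; 0, 0, 0, 1]
    !![1, 1, 1, 0; 1, 0, 0, 0; 1, 0, 0, 1; 0, 0, 1, 0]
    !![1, 0, 0, 0; 1, 1, 1, 0; 0, 0, 1, 0; 1, 0, 0, 1] (by decide +kernel) (by decide +kernel)
    (h.of_equiv e.symm)

theorem not_nd_psu43 [Fintype F] (hF : Fintype.card F = 3 ^ 2) : ¬ ND (PSU 4 F 3) := fun h => by
  obtain ⟨e⟩ := Cfsg.Agent.S0303.result (ZMod.card 3) hF 0 1 (by decide)
  exact nd_omega' (q4 (0 : ZMod 3) 1) _ j4 (minus_eq 0 1)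
    !![1, 2, 2, 0; 0, 1, 0, 0; 0, 2, 1, 0; 0, 0, 0, 1]
    !![0, 1, 0, 0; 1, 0, 0, 0; 0, 0, 1, 0; 0, 0, 0, 1]
    !![2, 2, 2, 1; 1, 1, 2, 2; 0, 2, 0, 1; 1, 0, 0, 2]
    !![1, 2, 1, 0; 2, 1, 1, 0; 2, 2, 0, 0; 0, 0, 0, 1] (by decide +kernel) (by decide +kernel)
    (h.of_equiv e.symm)

theorem jobKU : JobKU.{u} := by
  rintro l X _ _ hX ⟨F, _, _, n, q, hF, hn, h3, ⟨e⟩⟩
  have h := hX.of_equiv e
  obtain ⟨K, _, _, hK⟩ := exists_field hF
  obtain ⟨e2⟩ := Cfsg.Agent.S0281.result hF hK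
  have hq := l K (nd_center_congr e2 (nd_psu_le (by omega) h))
  have h1 := Fintype.one_lt_card (α := K)
  obtain rfl | rfl | rfl : q = 2 ∨ q = 3 ∨ q = 7 := by omega
  · exact absurd (nd_psu_le (by omega) h) (not_nd_psu42 hF)
  · by_cases h4 : 4 ≤ n
    · exact absurd (nd_psu_le h4 h) (not_nd_psu43 hF)
    · obtain rfl : n = 3 := by omega
      exact ⟨F, inferInstance, inferInstance, hF, ⟨e⟩⟩
  · exact absurd (nd_psu_le hn h) (not_nd_psu37 hF)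

end H81.DPK
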