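import Cfsg.Agent.H11.FBSpec
import Cfsg.Agent.H83.OrdA
/-! Six fixed points, a prime at least five, Fitting subgroup a 3-group. -/
set_option autoImplicit false
open MulAction Subgroup H11.FB
namespace H81.FBN3
universe u v

/-- The elements of order dividing three in the centre of `O`. -/
def BB {G : Type u} [Group G] (O : Subgroup G) : Subgroup G where
  carrier := {z | z ∈ O ∧ (∀ y ∈ O, z * y = y * z) ∧ z ^ 3 = 1}
  mul_mem' := fun {a b} ha hb => ⟨mul_mem ha.1 hb.1,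
    fun y hy => by rw [mul_assoc, hb.2.1 y hy, ← mul_assoc, ha.2.1 y hy, mul_assoc],
    by rw [Commute.mul_pow (ha.2.1 b hb.1), ha.2.2, hb.2.2, mul_one]⟩
  one_mem' := ⟨one_mem _, by simp, by simp⟩
  inv_mem' := fun {a} ha => ⟨inv_mem ha.1, fun y hy => (Commute.inv_left (ha.2.1 y hy)).eq,
    by rw [inv_pow, ha.2.2, inv_one]⟩

theorem BB_ne {G : Type u} [Group G] [Finite G] {O : Subgroup G} (h : IsPGroup 3 O) (h0 : O ≠ ⊥) :
    BB O ≠ ⊥ := by
  have : Fact (Nat.Prime 3) := ⟨Nat.prime_three⟩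
  have := (nontrivial_iff_ne_bot O).2 h0
  have := h.center_nontrivial
  obtain ⟨n, hn, e⟩ := (h.to_subgroup (center O)).nontrivial_iff_card.1 this
  obtain ⟨z, hz⟩ := exists_prime_orderOf_dvd_card' (G := center O) 3 (e ▸ dvd_pow_self 3 hn.ne')
  rw [← orderOf_coe, ← orderOf_coe] at hz
  refine ne_bot_iff_exists_ne_one.2 ⟨⟨z, z.1.2, fun y hy => congrArg Subtype.val
    (mem_center_iff.1 z.2 ⟨y, hy⟩).symm, hz ▸ pow_orderOf_eq_one _⟩, fun e => ?_⟩
  rw [show ((z : O) : G) = 1 from congrArg Subtype.val e, orderOf_one] at hz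
  omega

theorem BB_conj {G : Type u} [Group G] [Finite G] {O : Subgroup G} {g : G}
    (hg : ∀ x ∈ O, g * x * g⁻¹ ∈ O) : ∀ x ∈ BB O, g * x * g⁻¹ ∈ BB O := fun x hx => by
  refine ⟨hg x hx.1, fun y hy => ?_, by rw [conj_pow, hx.2.2, mul_one, mul_inv_cancel]⟩
  have := hx.2.1 _ ((mem_normalizer_iff''.1 (mem_normalizer_fintype (S := (O : Set G)) hg) y).1 hy)
  calc g * x * g⁻¹ * y = g * (x * (g⁻¹ * y * g)) * g⁻¹ := by group
    _ = _ := by rw [this]; group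

theorem jobN3 : JobN3.{u, v} := by
  intro on no tq n3a G Ω _ _ _ _ _ _ a b c d K H P O h cx hh hr r3 t6 hO pO nO cO
  have : Fact (Nat.Prime 3) := ⟨Nat.prime_three⟩
  have := Fact.mk hr
  have f := cx.hy.fr
  have PX : P ≤ X3 G a b c := cx.pd.le.trans (f.Kle.trans inf_le_left)
  have hX : h ∈ X3 G a b c := (f.Hle hh).1
  have nX : Nm (X3 G a b c) O := fun m hm => nO m fun x hx => mul_mem (mul_mem hm hx) (inv_mem hm)
  have nB : Nm (X3 G a b c) (BB O) := fun m hm => BB_conj (nX m hm)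
  have fin : ¬ ∀ x ∈ P, ∀ z ∈ O, x * z = z * x := fun k => cx.pd.ne (eq_bot_iff.2 fun x hx =>
    (IsPGroup.disjoint_of_ne 2 3 (by norm_num) _ _ cx.pd.pg pO).le_bot ⟨hx, cO x (PX hx) (k x hx)⟩)
  have O0 : O ≠ ⊥ := fun e => fin fun x _ z hz => by
    rw [(eq_bot_iff_forall O).1 e z hz, mul_one, one_mul]
  have BO : BB O ≤ O := fun _ hx => hx.1
  have cB : ∀ x ∈ BB O, ∀ y ∈ BB O, x * y = y * x := fun x hx y hy => hx.2.1 y hy.1
  by_cases fx : ∃ x ∈ BB O, x ≠ 1 ∧ ∃ ω, ω ≠ a ∧ ω ≠ b ∧ ω ≠ c ∧ x • ω = ω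
  · exact on cx (BO.trans hO) nB cB fx
  exfalso
  have b27 := n3a cx.hy.tr cx.hy.ne (BO.trans hO) cB (fun x hx => hx.2.2)
    (fun g hg => BB_conj (nO g hg)) fun x hx ω h1 h2 h3 h4 =>
      by_contra fun e => fx ⟨x, hx, e, ω, h1, h2, h3, h4⟩
  obtain ⟨y, hy, hc, y1⟩ : ∃ y ∈ BB O, h * y = y * h ∧ y ≠ 1 := by
    by_contra k
    push Not at k
    exact BB_ne pO O0 ((no cx hh hr Nat.prime_three (by norm_num) (BO.trans hO) nB (pO.to_le BO)).1 k)
  have oy : orderOf y = 3 := orderOf_eq_prime hy.2.2 y1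
  have zy : Nat.card (zpowers y) = 3 := by rw [Nat.card_zpowers, oy]
  have l1 : zpowers y ≤ BB O ⊓ centralizer {h} :=
    zpowers_le.2 ⟨hy, mem_centralizer_singleton_iff.2 hc.symm⟩
  have l2 : BB O ⊓ centralizer {h} ≤ O ⊓ centralizer {h} := inf_le_inf_right _ BO
  have e1 : zpowers y = O ⊓ centralizer {h} := eq_of_le_of_card_ge (l1.trans l2) (by
    have := (no cx hh hr Nat.prime_three (by norm_num) hO nX pO).2
    rw [t6] at this
    rw [zy]
    exact Nat.le_of_dvd (by norm_num) this)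
  have md := H83.Ord.conj_modEq (pow_orderOf_eq_one h) (nB.le_normalizer hX)
  rw [← le_antisymm l1 (e1 ▸ l2), zy] at md
  have r2 : orderOf h ≠ 2 := fun e => cx.odd.not_two_dvd_nat (e ▸ orderOf_dvd_natCard H hh)
  have e2 : zpowers y = BB O := eq_of_le_of_card_ge (zpowers_le.2 hy) (by
    obtain ⟨k, hk⟩ := IsPGroup.iff_card.1 (pO.to_le BO)
    rw [hk] at md b27 ⊢
    have k3 : k ≤ 3 := (Nat.pow_le_pow_iff_right (by norm_num : 1 < 3)).1 b27
    have nd : ¬ orderOf h ∣ 2 ^ 3 * 3 := fun e => (hr.dvd_mul.1 e).elim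
      (fun e => r2 ((Nat.prime_dvd_prime_iff_eq hr Nat.prime_two).1 (hr.dvd_of_dvd_pow e)))
      fun e => r3 ((Nat.prime_dvd_prime_iff_eq hr Nat.prime_three).1 e)
    rw [zy]
    interval_cases k
    · norm_num
    · norm_num
    · exact absurd (((Nat.modEq_iff_dvd' (by norm_num)).1 md.symm).trans (by norm_num)) nd
    · exact absurd (((Nat.modEq_iff_dvd' (by norm_num)).1 md.symm).trans (by norm_num)) nd)
  have h1 : h ≠ 1 := fun e => hr.ne_one (by rw [e, orderOf_one])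
  have hP : ∀ x ∈ P, h * x * h⁻¹ ∈ P := fun x hx => cx.pd.conj_mem f
    (fun l hl => mul_mem (mul_mem (f.Hle hh) hl) (inv_mem (f.Hle hh))) hx
  have fP : ∀ x ∈ P, h * x = x * h → x = 1 := fun x hx => f.fpf hh h1 (cx.pd.le hx)
  refine fin (tq Nat.prime_three (by norm_num) pO cx.pd.pg (fun m hm => nX m (PX hm)) hr r2
    (nX h hX) hP fP hy.1 (fun x hx => (hy.2.1 x hx).symm) (fun x hx => ?_) hc
    (fun x hx e => e1 ▸ ⟨hx, mem_centralizer_singleton_iff.2 e.symm⟩) (Or.inr r3))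
  obtain ⟨w, hw, rfl⟩ := exists_comm hP fP hx
  obtain ⟨n, hn⟩ : w⁻¹ * y * w⁻¹⁻¹ ∈ zpowers y := e2 ▸ nB _ (inv_mem (PX hw)) y hy
  have c1 : h⁻¹ * y = y * h⁻¹ := (Commute.inv_left hc).eq
  have c2 : h * y ^ n = y ^ n * h := (Commute.zpow_right hc n).eq
  have hn' : y ^ n = w⁻¹ * y * w := by simpa using hn
  calc w * (h * w⁻¹ * h⁻¹) * y = w * h * w⁻¹ * (h⁻¹ * y) := by group
    _ = w * (h * (w⁻¹ * y * w)) * w⁻¹ * h⁻¹ := by rw [c1]; group
    _ = _ := by rw [← hn', c2, hn']; group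

end H81.FBN3
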