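/- NG tower (S4338-40), slot M2: Fourier analysis on `N(P)/P`. -/
import Cfsg.Agent.H36.NGSpec
import Cfsg.Agent.H45.BT

set_option autoImplicit false

namespace H81.NGM2

open Cfsg H28 H87 H39 H2.PR H36.NG Finset
open scoped ComplexConjugate

universe u

theorem orth {ω : ℂ} {e : ℕ} (hω : IsPrimitiveRoot ω e) {b c : ℕ} (hb : b < e) (hc : c < e) :
    ∑ i ∈ range e, (ω ^ (i * b))⁻¹ * ω ^ (i * c) = if b = c then (e : ℂ) else 0 := by
  have h0 : ω ≠ 0 := hω.ne_zero (by omega)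
  have h1 : ∀ i, (ω ^ (i * b))⁻¹ * ω ^ (i * c) = ((ω ^ b)⁻¹ * ω ^ c) ^ i := fun i => by
    rw [mul_pow, inv_pow, ← pow_mul, ← pow_mul, mul_comm b, mul_comm c]
  simp only [h1]
  split_ifs with h
  · rw [h, inv_mul_cancel₀ (pow_ne_zero _ h0)]; simp
  · have h2 : (ω ^ b)⁻¹ * ω ^ c ≠ 1 := fun k =>
      h (hω.pow_inj hb hc ((inv_mul_eq_one₀ (pow_ne_zero _ h0)).1 k))
    rw [geom_sum_eq h2, ← h1, pow_mul, pow_mul, hω.pow_eq_one]
    simp

theorem fourier {ω : ℂ} {e : ℕ} (hω : IsPrimitiveRoot ω e) {m F : ℕ → ℂ}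
    (h : ∀ i, e * m i = ∑ b ∈ range e, F b * (ω ^ (i * b))⁻¹) {c : ℕ} (hc : c < e) :
    ∑ i ∈ range e, m i * ω ^ (i * c) = F c := by
  refine mul_left_cancel₀ (Nat.cast_ne_zero.2 (by omega) : (e : ℂ) ≠ 0) ?_
  simp only [mul_sum, ← mul_assoc, h, sum_mul]
  rw [sum_comm, sum_congr rfl fun b hb => by
    simp only [mul_assoc]
    rw [← mul_sum, orth hω (mem_range.1 hb) hc], sum_eq_single_of_mem c (mem_range.2 hc)
    fun b _ hb => by rw [if_neg hb, mul_zero], if_pos rfl, mul_comm]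

variable {G : Type u} [Group G] [Fintype G] {p e h : ℕ} [hp : Fact p.Prime] {P : Sylow p G}
  {x y : G} {lam : Nor (P : Subgroup G) →* ℂˣ} {ω : ℂ}

theorem chL (lam : Nor (P : Subgroup G) →* ℂˣ) (i : ℕ) : IsCharacter G (LL lam i) := by
  have := (isCharacter_of_hom (lam ^ i)).indFun
  simpa [LL] using this

theorem coe_mm {L Ψ : G → ℂ} (hL : IsCharacter G L) (hΨ : IsCharacter G Ψ) :
    (mm L Ψ : ℂ) = classInner L Ψ := by
  obtain ⟨n, hn⟩ := hL.classInner_nat hΨ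
  rw [mm, hn]; simp

/-- The Fourier coefficients. -/
noncomputable def FF (P : Subgroup G) [Fintype P] (p : ℕ) (x : G) (Ψ : G → ℂ) (b : ℕ) : ℂ :=
  if b = 0 then (p : ℂ)⁻¹ * ∑ z : P, Ψ z else Ψ (x ^ b)

theorem key [Fintype (P : Subgroup G)] (S : Sc p e h P x y lam ω) {Ψ : G → ℂ}
    (hΨ : IsCharacter G Ψ) (i : ℕ) : (e : ℂ) * mm (LL lam i) Ψ =
      ∑ b ∈ range e, FF (P : Subgroup G) p x Ψ b * (ω ^ (i * b))⁻¹ := by
  classical
  have L := S.lo
  cases nonempty_fintype (Nor (P : Subgroup G))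
  have hp0 : (p : ℂ) ≠ 0 := Nat.cast_ne_zero.2 hp.out.ne_zero
  have hc : Nat.card (Nor (P : Subgroup G)) = e * p := by
    rw [L.card_nor, S.cen, Subgroup.card_bot, mul_one]
  have h3 := card_mul_classInner (fun n : Nor (P : Subgroup G) => Ψ n) fun n => (lam n : ℂ) ^ i
  have hb : Function.Bijective fun a : Fin e × (P : Subgroup G) =>
      ((⟨x, L.x_mem⟩ : Nor (P : Subgroup G)) ^ (a.1 : ℕ) * ⟨a.2, Subgroup.le_normalizer a.2.2⟩ :
        Nor (P : Subgroup G)) := by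
    refine (Fintype.bijective_iff_surjective_and_card _).2 ⟨fun n => ?_, ?_⟩
    · obtain ⟨j, hj, c, hc, h⟩ := L.nor n n.2
      obtain ⟨k, z, hz, rfl⟩ := L.cen c hc
      rw [S.cen, Subgroup.mem_bot] at hz
      exact ⟨(⟨j, hj⟩, ⟨_, pow_mem L.mem k⟩), Subtype.ext (by rw [h, hz, mul_one]; rfl)⟩
    · rw [Fintype.card_prod, Fintype.card_fin, ← Nat.card_eq_fintype_card,
        ← Nat.card_eq_fintype_card, hc, L.card]
  rw [← hb.sum_comp, Fintype.sum_prod_type, hc] at h3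
  have h4 : ∀ (b : ℕ) (z : (P : Subgroup G)), conj ((lam ((⟨x, L.x_mem⟩ : Nor (P : Subgroup G)) ^ b *
      ⟨z, Subgroup.le_normalizer z.2⟩) : ℂ) ^ i) = (ω ^ (i * b))⁻¹ := fun b z => by
    rw [map_mul, S.triv ⟨z, _⟩ z.2, mul_one, map_pow lam, Units.val_pow_eq_pow_val, S.val,
      ← pow_mul, mul_comm b, Complex.inv_eq_conj]
    rw [norm_pow, S.prim.norm'_eq_one L.e_pos.ne', one_pow]
  simp only [h4] at h3
  rw [coe_mm (chL lam i) hΨ, (chL lam i).classInner_comm hΨ, LL,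
    H33.classInner_indFun_right _ _ hΨ.isClassFunction]
  refine mul_left_cancel₀ hp0 ?_
  rw [← mul_assoc, mul_comm (p : ℂ), ← Nat.cast_mul, h3, ← Fin.sum_univ_eq_sum_range
    fun b => FF (P : Subgroup G) p x Ψ b * (ω ^ (i * b))⁻¹, mul_sum]
  refine sum_congr rfl fun b _ => ?_
  rw [← sum_mul, ← mul_assoc]
  congr 1
  change ∑ z : (P : Subgroup G), Ψ (x ^ (b : ℕ) * z) = _
  unfold FF
  split_ifs with h0
  · simp [h0, hp0]
  · rw [sum_congr rfl fun z _ => (hΨ.isClassFunction.eq_of_isConj (L.isConj (pow_mem L.x_mem b)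
      (fun k => Nat.not_dvd_of_pos_of_lt (Nat.pos_of_ne_zero h0) b.2 (L.pow_mem_cen_iff.1 k))
      z.2)).symm, sum_const, card_univ, ← Nat.card_eq_fintype_card, L.card, nsmul_eq_mul]

theorem sum_mm [Fintype (P : Subgroup G)] (S : Sc p e h P x y lam ω) {Ψ : G → ℂ}
    (hΨ : IsCharacter G Ψ) : (p : ℂ) * (∑ i ∈ range e, mm (LL lam i) Ψ : ℕ) =
      ∑ z : (P : Subgroup G), Ψ z := by
  have h1 := fourier S.prim (key S hΨ) S.lo.e_pos
  simp only [mul_zero, pow_zero, mul_one, FF, if_true] at h1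
  rw [Nat.cast_sum, h1, mul_inv_cancel_left₀ (Nat.cast_ne_zero.2 hp.out.ne_zero)]

theorem jobM2 : JobM2.{u} := by
  intro G _ _ p U K n e t h hp P X Y δ ε x y lam ω C S
  classical
  have L := S.lo
  cases nonempty_fintype (P : Subgroup G)
  have hp0 : (p : ℂ) ≠ 0 := Nat.cast_ne_zero.2 hp.out.ne_zero
  refine ⟨fun Ψ hΨ i => ?_, fun Ψ hΨ c hc => ?_, fun θ hθ => ?_, fun Ψ hΨ b hb => ?_,
    fun Ψ hΨ h0 i _ => ?_⟩
  · have h1 := coe_mm (chL lam i) hΨ
    rw [(chL lam i).classInner_comm hΨ, classInner_eq_sum_mlt hΨ (chL lam i)] at h1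
    exact_mod_cast h1
  · have h1 := sum_mm S hΨ
    rw [sum_prime_subgroup hp.out L.card fun z hz h1 =>
      hc z (orderOf_eq_of_mem hp.out L.card hz h1).symm.dvd, ← hΨ.cast_charDegree] at h1
    exact_mod_cast h1
  · have h1 := sum_mm S θ.2.isCharacter
    cases nonempty_fintype (Subgroup.center G)
    have h2 := L.cpl.master_ker θ.2.isClassFunction (S.cen ▸ bot_le)
    rw [sS_apply, C.br.inner_sg_Y hθ, L.idx, ← h1, ← coe_dg] at h2
    have h3 : (t : ℂ) * e + 1 = p := by exact_mod_cast C.br.te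
    have h4 : (p : ℂ) * (t * (∑ i ∈ range e, mm (LL lam i) θ : ℕ)) = t * dg θ - (p - 1) * ε := by
      linear_combination -(t : ℂ) * h2 - ε * h3
    exact_mod_cast h4
  · have h1 : x ^ e = 1 := Subgroup.mem_bot.1 (S.cen ▸ L.xe)
    have h2 := fourier S.prim (key S hΨ) (Nat.mod_lt b L.e_pos)
    rw [FF, if_neg fun k => hb (Nat.dvd_of_mod_eq_zero k), ← pow_eq_pow_mod b h1] at h2
    rw [← h2]
    refine sum_congr rfl fun i _ => ?_
    rw [mul_comm i, mul_comm i, pow_mul, pow_mul, ← pow_eq_pow_mod b S.prim.pow_eq_one]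
  · have h1 := key S hΨ i
    rw [sum_eq_single_of_mem 0 (mem_range.2 L.e_pos) fun b hb h2 => by
      rw [FF, if_neg h2, h0 b (Nat.not_dvd_of_pos_of_lt (Nat.pos_of_ne_zero h2) (mem_range.1 hb)),
        zero_mul], FF, if_pos rfl, ← sum_mm S hΨ, inv_mul_cancel_left₀ hp0] at h1
    simp only [mul_zero, pow_zero, inv_one, mul_one] at h1
    exact_mod_cast h1

end H81.NGM2
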