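import Cfsg.Agent.H70.R3Spec
/-! The class count for linear groups of degree four. -/
set_option autoImplicit false
open Cfsg H28 Subgroup H70.R3
namespace H81.R3Cnt
universe u
variable {X : Type u} [Group X] [Finite X]

/-- The classes whose image modulo the centre has an order with the property `q`. -/
def DD (X : Type u) [Group X] (q : ℕ → Prop) : Set (ConjClasses X) :=
  {c | ∃ t : X, ConjClasses.mk t = c ∧ q (orderOf (t : X ⧸ center X))}

omit [Finite X] in
theorem disj {q q' : ℕ → Prop} (h : ∀ n, q n → q' n → False) : Disjoint (DD X q) (DD X q') :=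
  Set.disjoint_left.2 fun _ ⟨t, e, k⟩ ⟨t', e', k'⟩ => by
    obtain ⟨c, rfl⟩ := isConj_iff.1 (ConjClasses.mk_eq_mk_iff_isConj.1 (e.trans e'.symm))
    rw [QuotientGroup.mk_mul, QuotientGroup.mk_mul, QuotientGroup.mk_inv, ← MulAut.conj_apply,
      MulEquiv.orderOf_eq] at k'
    exact h _ k k'

theorem one (mon : JobMon.{u}) (meet : JobMeet.{u}) (h : FChr X 4) (r : ℕ) (hr : r.Prime) :
    ∃ j, r ^ j ∣ 24 ∧ Nat.card (center X) * r ^ (center X).index.factorization r ≤
      r ^ j * (24 * (DD X fun n => ∃ k, n = r ^ (k + 1)).ncard + Nat.card (center X)) := by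
  classical
  have := Fact.mk hr
  cases nonempty_fintype X
  obtain ⟨S⟩ : Nonempty (Sylow r (X ⧸ center X)) := inferInstance
  set P := (S : Subgroup (X ⧸ center X)).comap (QuotientGroup.mk' (center X)) with hP
  let f : P →* S := (QuotientGroup.mk' (center X)).subgroupComap S
  have hk : f.ker = (center X).subgroupOf P := by
    ext x
    rw [MonoidHom.mem_ker, mem_subgroupOf, ← QuotientGroup.eq_one_iff, Subtype.ext_iff]
    rfl
  have hz : (center X).subgroupOf P ≤ center P := fun x hx =>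
    mem_center_iff.2 fun y => Subtype.ext (mem_center_iff.1 hx y)
  have hZP : center X ≤ P := fun x hx => by
    rw [hP, mem_comap, QuotientGroup.mk'_apply, (QuotientGroup.eq_one_iff x).2 hx]
    exact one_mem _
  have := S.isPGroup'.isNilpotent
  have := Subgroup.isNilpotent_of_ker_le_center f (hk ▸ hz)
  have hi : ((center X).subgroupOf P).index = r ^ (center X).index.factorization r := by
    rw [← hk, index_ker, MonoidHom.range_eq_top.2 (MonoidHom.subgroupComap_surjective_of_surjective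
      _ _ (QuotientGroup.mk'_surjective _)), card_top, S.card_eq_multiplicity, index_eq_card]
  obtain ⟨χ, h1, h2, h3⟩ := h
  obtain ⟨T, hT, hT'⟩ := mon P ⟨_, h1.restrict P, by rw [h1.charKer_restrict, h2, bot_subgroupOf],
    by rwa [charDegree_restrict]⟩
  set U := T ⊔ (center X).subgroupOf P with hU
  have hUc : IsMulCommutative U := le_centralizer_iff_isMulCommutative.1 (sup_le
    (le_centralizer_iff.1 (sup_le (le_centralizer_iff_isMulCommutative.2 hT)
      (hz.trans (center_le_centralizer _)))) (hz.trans (center_le_centralizer _)))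
  obtain ⟨j, -, hj⟩ := (Nat.dvd_prime_pow hr).1 (hi ▸ index_dvd_of_le (le_sup_right : _ ≤ U))
  refine ⟨j, hj ▸ (index_dvd_of_le le_sup_left).trans hT', ?_⟩
  rw [← hi, ← Nat.card_congr (subgroupOfEquivOfLe hZP).toEquiv, card_mul_index, ← U.card_mul_index,
    hj, mul_comm, Nat.card_congr (subgroupOfEquivOfLe hZP).toEquiv,
    ← card_map_of_injective P.subtype_injective (K := U)]
  refine Nat.mul_le_mul_left _ ?_
  set W := U.map P.subtype with hW
  have e1 : (W : Set X) ⊆ (W \ center X : Set X) ∪ center X := by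
    rw [Set.sdiff_union_self]; exact Set.subset_union_left
  refine ((Nat.card_coe_set_eq (W : Set X)).le.trans (Set.ncard_le_ncard e1)).trans
    ((Set.ncard_union_le _ _).trans (add_le_add ?_ (Nat.card_coe_set_eq (center X : Set X)).ge))
  rw [Set.ncard_eq_toFinset_card', Set.ncard_eq_toFinset_card']
  refine Finset.card_le_mul_card_image_of_maps_to (f := ConjClasses.mk) (fun t ht => ?_) 24
    fun c _ => le_trans ?_ (meet X W c ⟨χ, h1, h2, h3⟩)
  · rw [Set.mem_toFinset] at ht ⊢
    obtain ⟨k, hk⟩ := IsPGroup.iff_orderOf.1 S.isPGroup' ⟨_, map_subtype_le U ht.1⟩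
    replace hk := (orderOf_mk _ _).symm.trans hk
    rcases k with _ | k
    · exact absurd ((QuotientGroup.eq_one_iff t).1 (orderOf_eq_one_iff.1 hk)) ht.2
    · exact ⟨t, rfl, k, hk⟩
  · rw [← Set.ncard_coe_finset]
    refine Set.ncard_le_ncard fun t ht => ?_
    simp only [Finset.coe_filter, Set.mem_toFinset, Set.mem_ofPred_eq] at ht
    exact ⟨ht.1.1, ht.2⟩

theorem jobCnt : JobCnt.{u} := by
  intro mon meet X _ _ h
  obtain ⟨a, a1, a2⟩ := one mon meet h 2 Nat.prime_two
  obtain ⟨b, b1, b2⟩ := one mon meet h 3 Nat.prime_three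
  obtain ⟨c, c1, c2⟩ := one mon meet h 5 Nat.prime_five
  have a3 : 2 ^ a ≤ 8 := Nat.le_of_dvd (by norm_num)
    ((Nat.Coprime.pow_left a (by norm_num : Nat.Coprime 2 3)).dvd_of_dvd_mul_right a1)
  have b3 : 3 ^ b ≤ 3 := Nat.le_of_dvd (by norm_num)
    ((Nat.Coprime.pow_left b (by norm_num : Nat.Coprime 3 8)).dvd_of_dvd_mul_right b1)
  have c3 : 5 ^ c = 1 := (Nat.Coprime.pow_left c (by norm_num : Nat.Coprime 5 24)).eq_one_of_dvd c1
  rw [c3, one_mul] at c2
  refine ⟨_, _, _, ?_, a2.trans (Nat.mul_le_mul_right _ a3), b2.trans (Nat.mul_le_mul_right _ b3), c2⟩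
  have pp : ∀ {p q : ℕ}, p.Coprime q → 1 < p → ∀ n, (∃ k, n = p ^ (k + 1)) →
      (∃ k, n = q ^ (k + 1)) → False := fun {p q} h hp n ⟨k, e⟩ ⟨l, e'⟩ =>
    hp.ne' ((h.pow_right (l + 1)).eq_one_of_dvd (e' ▸ e ▸ dvd_pow_self p k.succ_ne_zero))
  have p1 : ∀ {q : ℕ}, 1 < q → ∀ n, n = 1 → (∃ k, n = q ^ (k + 1)) → False :=
    fun {q} hq n e ⟨k, e'⟩ => (Nat.one_lt_pow k.succ_ne_zero hq).ne (e.symm.trans e')
  have z : Nat.card (center X) ≤ (DD X fun n => n = 1).ncard := by
    rw [← Nat.card_coe_set_eq]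
    refine Nat.card_le_card_of_injective (fun z : center X => ⟨ConjClasses.mk (z : X), z, rfl,
      orderOf_eq_one_iff.2 ((QuotientGroup.eq_one_iff _).2 z.2)⟩) fun a b e => ?_
    obtain ⟨c, hc⟩ := isConj_iff.1 (ConjClasses.mk_eq_mk_iff_isConj.1 (congrArg Subtype.val e))
    exact Subtype.ext (by rw [← hc, mem_center_iff.1 a.2 c, mul_inv_cancel_right])
  refine (add_le_add_left (add_le_add_left (add_le_add_left z _) _) _).trans ?_
  rw [← Set.ncard_union_eq (disj (p1 (by norm_num))), ← Set.ncard_union_eq (Set.disjoint_union_left.2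
    ⟨disj (p1 (by norm_num)), disj (pp (by norm_num) (by norm_num))⟩), ← Set.ncard_union_eq
    (Set.disjoint_union_left.2 ⟨Set.disjoint_union_left.2 ⟨disj (p1 (by norm_num)),
      disj (pp (by norm_num) (by norm_num))⟩, disj (pp (by norm_num) (by norm_num))⟩)]
  exact Set.ncard_le_card _

end H81.R3Cnt
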