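import Cfsg.Agent.H52.RCSpec
/-! Transfer of the configuration to the simple quotient. -/
set_option autoImplicit false
open H52.RC Subgroup
namespace H81.RCHol
universe u

theorem wv_conj {G : Type u} [Group G] {v w y g : G} (h : Wv v y)
    (hg : ∀ t, Commute t w → Commute (g⁻¹ * t * g) v) : Wv w (g * y * g⁻¹) := by
  refine ⟨by rw [← MulAut.conj_apply, MulEquiv.orderOf_eq]; exact h.1, fun t ht hc => ?_⟩
  have := (h.2 (g⁻¹ * t * g) (by simpa using ht.conj g⁻¹) (hg t hc)).eq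
  calc t * (g * y * g⁻¹) = g * (g⁻¹ * t * g * y) * g⁻¹ := by group
    _ = _ := by rw [this]; group

theorem jobHOL : JobHOL.{u} := by
  intro ka kw _ lz bal hs G _ _ m L _ st cl P v x bc
  by_contra hn
  push Not at hn
  obtain ⟨-, -, -, -, k5, -, -, k8, -⟩ := ka G
  obtain ⟨pv, -, -, -, -, ct, -⟩ := (lz G m L st).2.2.2 v bc.rg
  obtain ⟨T, T1, T2, T3⟩ := cl v bc.rg
  have vT : v ∈ T := T3 v (mem_C1.2 (Commute.refl v)) pv
  obtain ⟨B, B1, B2⟩ := kw G T T2 fun t ht h => T3 t (mem_C1.2 (ht v vT).symm) h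
  have hB : ∀ y, y ∈ B ↔ Wv v y := fun y => (B2 y).trans (and_congr_right fun _ =>
    ⟨fun h t ht hc => h t (T3 t (mem_C1.2 hc) ht),
      fun h t ht => h t ((k5 T).1 T2 t ht) (mem_C1.1 (T1 ht))⟩)
  have cB : Ct L v ≤ normalizer (B : Set G) := fun g hg =>
    mem_normalizer_fintype fun y hy => (hB _).2 (wv_conj ((hB y).1 hy) fun t ht =>
      mem_C1.1 ((mem_normalizer_iff''.1 (ct g hg).2.2.2.1 t).1 (mem_C1.2 ht)))
  set K := L ⊓ normalizer (B : Set G) with hK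
  have PK : P ⊓ L ≤ K := le_inf inf_le_right (inf_le_left.trans (bc.cen.trans cB))
  have sK : SylL K (P ⊓ L) := ⟨PK, bc.syl.2.1, bc.syl.2.2.of_dvd_nat
    (Dvd.intro _ (relIndex_mul_relIndex _ _ _ PK inf_le_left))⟩
  have fus : ∀ g ∈ L, g * v * g⁻¹ ∈ K → g ∈ K := fun g hg h => by
    obtain ⟨k, hk, e⟩ := (k8 K _ sK).2.2 (zpowers (g * v * g⁻¹)) ((k5 _).2 fun a ha => by
      obtain ⟨n, rfl⟩ := mem_powers_iff_mem_zpowers.2 ha
      exact (pv.conj g).pow n) (zpowers_le.2 h)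
    have e1 : k * g * v * (k * g)⁻¹ ∈ P := by
      have := (e _ (mem_zpowers _)).1
      rwa [show k * (g * v * g⁻¹) * k⁻¹ = k * g * v * (k * g)⁻¹ by group] at this
    have e2 := hn _ (mul_mem hk.1 hg) e1
    have e3 : k * g ∈ normalizer (B : Set G) := mem_normalizer_fintype fun y hy => by
      have w := wv_conj (w := k * g * v * (k * g)⁻¹) (g := k * g) ((hB y).1 hy) fun t ht => by
        calc (k * g)⁻¹ * t * (k * g) * v = (k * g)⁻¹ * (t * (k * g * v * (k * g)⁻¹)) * (k * g) := by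
              group
          _ = _ := by rw [ht.eq]; group
      exact (hB _).2 (bal G m L st _ v _ (pv.conj _) bc.rg (cl v bc.rg) (bc.cen e1) w
        (w.2 v pv e2.symm).symm)
    exact ⟨hg, (Subgroup.mul_mem_cancel_left _ hk.2).1 e3⟩
  have := st.2.1.2
  let π := QuotientGroup.mk' (center L)
  have hπ : Function.Surjective π := QuotientGroup.mk'_surjective _
  have zc : ∀ z ∈ Zc L, z ∈ Ct L v := fun z hz => mem_Ct.2 (by
    rw [← ((mem_Zc.1 hz).2 v bc.rg.1).eq, mul_inv_cancel_right, mul_inv_cancel]; exact one_mem _)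
  have mM : ∀ g : L, π g ∈ (K.subgroupOf L).map π ↔ (g : G) ∈ K := fun g => by
    refine ⟨fun ⟨a, ha, e⟩ => ?_, fun h => mem_map_of_mem _ h⟩
    have z := mem_center_iff_Zc.1 (QuotientGroup.eq.1 e)
    exact (mul_mem_cancel_left (inv_mem ha)).1 ⟨z.1, cB (zc _ z)⟩
  have mC : ∀ g : L, π g ∈ C1 (π ⟨v, bc.rg.1⟩) ↔ (g : G) ∈ Ct L v := fun g => by
    rw [mem_C1, ← commutatorElement_eq_one_iff_commute, ← map_commutatorElement, mem_Ct]
    exact mk_eq_one_iff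
  obtain ⟨s, s1, s2, s3⟩ := bc.ex
  refine hs (L ⧸ center L) (fun h => bc.rg.2.1 ?_) ((K.subgroupOf L).map π) ((B.subgroupOf L).map π)
    (π ⟨v, bc.rg.1⟩) (π ⟨x, bc.xL⟩) (π ⟨s, s2⟩) ?_ ?_ (fun g hg => ?_) (fun g hg => ?_)
    (map_mono fun g hg => ⟨g.2, le_normalizer hg⟩) ?_ ?_ (mem_map_of_mem _ ((hB x).2 bc.wv))
    (fun h => bc.x1 (eq_one_of_P2 ((k5 _).1 st.2.zc x (mk_eq_one_iff.1 h)) bc.wv.1))
    ((mM _).2 (PK ⟨s1, s2⟩)) ?_
  · have h1 := Normal.quotient_commutative_iff_commutator_le.1 h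
    rw [st.2.1.1.commutator_eq_top] at h1
    exact mem_center_iff_Zc.1 (h1 (mem_top (⟨v, bc.rg.1⟩ : L)))
  · refine orderOf_eq_prime ?_ fun h => bc.rg.2.1 (mk_eq_one_iff.1 h)
    rw [← map_pow]
    exact mk_eq_one_iff.2 bc.rg.2.2.1
  · refine bc.syl.2.2.of_dvd_nat (Dvd.dvd.trans (index_dvd_of_le ?_) (index_map_dvd _ hπ))
    rintro _ ⟨g, hg, rfl⟩
    exact (mC g).2 (bc.cen hg.1)
  · obtain ⟨g, rfl⟩ := hπ g
    exact (mM g).2 ⟨g.2, cB ((mC g).1 hg)⟩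
  · obtain ⟨g, rfl⟩ := hπ g
    rw [← map_inv, ← map_mul, ← map_mul, mM] at hg
    exact (mM g).2 (fus g g.2 hg)
  · exact B1.of_dvd_nat ((card_map_dvd _ _).trans (card_comap_dvd_of_injective _ _ L.subtype_injective))
  · rintro _ ⟨g, hg, rfl⟩
    refine mem_normalizer_fintype ?_
    rintro _ ⟨w, hw, rfl⟩
    exact ⟨g * w * g⁻¹, (mem_normalizer_iff.1 hg.2 w).1 hw, by simp⟩
  · unfold H52.RC.Inv
    rw [← map_inv, ← map_inv, ← map_mul, ← map_mul]
    exact congrArg π (Subtype.ext s3)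

end H81.RCHol
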