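/- SPIN tower (S4578), slot TH: the function module of colourings. -/
import Cfsg.Agent.H2.SpSpec

set_option autoImplicit false

namespace H81.SpTh
open Cfsg Equiv H2.Sp H40.Sn Finset

section
variable {Ω G V : Type} [Fintype Ω] [DecidableEq Ω] [Group G] [AddCommGroup V] [Module ℂ V]
  {m : ℕ}

abbrev Col (Ω : Type) [Fintype Ω] {m : ℕ} (α : Fin m → ℕ) := {f : Ω → Fin m // cont f = α}

def pull {α : Fin m → ℕ} (σ : Perm Ω) (f : Col Ω α) : Col Ω α :=
  ⟨f.1 ∘ σ, (cont_comp f.1 σ).trans f.2⟩

/-- The module of `V`-valued functions on colourings. -/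
def rep (α : Fin m → ℕ) (π : G →* Perm Ω) (ρ : Representation ℂ G V) :
    Representation ℂ G (Col Ω α → V) where
  toFun g := LinearMap.pi fun f => ρ g ∘ₗ LinearMap.proj (pull (π g) f)
  map_one' := by
    ext F f
    simp [pull]
  map_mul' g h := by
    refine LinearMap.ext fun F => funext fun f => ?_
    simp [pull, Function.comp_assoc]

theorem rep_apply (α : Fin m → ℕ) (π : G →* Perm Ω) (ρ : Representation ℂ G V) (g : G)
    (F : Col Ω α → V) (f : Col Ω α) : rep α π ρ g F f = ρ g (F (pull (π g) f)) := rfl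

theorem char_rep [FiniteDimensional ℂ V] (α : Fin m → ℕ) (π : G →* Perm Ω)
    (ρ : Representation ℂ G V) (g : G) : (rep α π ρ).character g =
    ρ.character g * cf α (pm (Fin m) ℂ (π g).partition.parts) := by
  classical
  have e : rep α π ρ g = ∑ f : Col Ω α, LinearMap.single ℂ (fun _ => V) f ∘ₗ
      (ρ g ∘ₗ LinearMap.proj (pull (π g) f)) := by
    refine LinearMap.ext fun F => funext fun f => ?_
    rw [rep_apply, LinearMap.sum_apply, Finset.sum_apply, Finset.sum_eq_single f]
    · simp
    · intro b _ hb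
      simp [hb.symm]
    · simp
  have h : ∀ f : Col Ω α, LinearMap.trace ℂ _ (LinearMap.single ℂ (fun _ => V) f ∘ₗ
      (ρ g ∘ₗ LinearMap.proj (pull (π g) f))) =
      if pull (π g) f = f then ρ.character g else 0 := by
    intro f
    rw [LinearMap.trace_comp_comm', LinearMap.comp_assoc]
    split_ifs with hf
    · rw [hf]
      congr 1
      ext v
      simp
    · have : (LinearMap.proj (pull (π g) f) : (Col Ω α → V) →ₗ[ℂ] V) ∘ₗ
          LinearMap.single ℂ (fun _ => V) f = 0 := by
        ext v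
        simp [hf]
      rw [this]
      simp
  rw [Representation.character, e, map_sum, Finset.sum_congr rfl fun f _ => h f, cf_pm_parts,
    ← Finset.sum_filter, Finset.sum_const, nsmul_eq_mul, mul_comm]
  congr 2
  refine Finset.card_bij (fun f _ => f.1) ?_ ?_ ?_
  · intro f hf
    exact mem_filter.2 ⟨mem_univ _, congrArg Subtype.val (mem_filter.1 hf).2, f.2⟩
  · intro f _ f' _ h
    exact Subtype.ext h
  · intro f hf
    exact ⟨⟨f, (mem_filter.1 hf).2.2⟩, mem_filter.2 ⟨mem_univ _,
      Subtype.ext (mem_filter.1 hf).2.1⟩, rfl⟩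

theorem core (hCL : CL) [Finite G] [FiniteDimensional ℂ V] (α : Fin m → ℕ) (π : G →* Perm Ω)
    (ρ : Representation ℂ G V) (κ : Type) [Fintype κ] (b : κ → Col Ω α → Module.End ℂ V)
    (d : κ → ℂ) (h1 : ∀ i, d i ≠ 0) (h2 : ∀ i f, b i f * b i f = d i • (1 : Module.End ℂ V))
    (h3 : ∀ i j f, i ≠ j → b i f * b j f = -(b j f * b i f))
    (h4 : ∀ g i f, ρ g * b i (pull (π g) f) = b i f * ρ g) :
    ∃ ψ, IsCharacter G ψ ∧ ∀ g, ρ.character g * cf α (pm (Fin m) ℂ (π g).partition.parts) =
      2 ^ (Fintype.card κ / 2) * ψ g := by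
  obtain ⟨ψ, hψ, e⟩ := hCL G (Col Ω α → V) κ (rep α π ρ)
    (fun i => LinearMap.pi fun f => b i f ∘ₗ LinearMap.proj f) d
    (fun i => ⟨h1 i, LinearMap.ext fun F => funext fun f => by
      simpa using LinearMap.congr_fun (h2 i f) (F f)⟩)
    (fun i j h => LinearMap.ext fun F => funext fun f => by
      simpa using LinearMap.congr_fun (h3 i j f h) (F f))
    (fun g i => LinearMap.ext fun F => funext fun f => by
      simpa [rep_apply] using LinearMap.congr_fun (h4 g i f) (F (pull (π g) f)))
  exact ⟨ψ, hψ, fun g => by rw [← char_rep, e]⟩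

/-- The anticommuting family at a colouring. -/
noncomputable def fam (P : Pin Ω G V) (α : Fin m → ℕ) :
    Option (Ω ⊕ {j // α j ≠ 0}) → Col Ω α → Module.End ℂ V
  | none, _ => P.a none
  | some (.inl i), _ => P.a (some (.inr i))
  | some (.inr j), f => ∑ i ∈ univ.filter (fun i => f.1 i = j.1), P.a (some (.inl i))

def dd (α : Fin m → ℕ) : Option (Ω ⊕ {j // α j ≠ 0}) → ℂ
  | none => 1
  | some (.inl _) => 1
  | some (.inr j) => α j.1

theorem sum_sq (P : Pin Ω G V) (s : Finset Ω) :
    (∑ i ∈ s, P.a (some (.inl i))) * (∑ i ∈ s, P.a (some (.inl i))) =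
      (s.card : ℂ) • (1 : Module.End ℂ V) := by
  induction s using Finset.induction_on with
  | empty => simp
  | insert x s hx ih =>
    have h : P.a (some (.inl x)) * (∑ i ∈ s, P.a (some (.inl i))) =
        -((∑ i ∈ s, P.a (some (.inl i))) * P.a (some (.inl x))) := by
      rw [mul_sum, sum_mul, ← sum_neg_distrib]
      exact sum_congr rfl fun i hi => P.anti _ _ fun e => hx (by
        simp only [Option.some.injEq, Sum.inl.injEq] at e
        exact e ▸ hi)
    rw [sum_insert hx, card_insert_of_notMem hx, add_mul, mul_add, mul_add, ih, P.sq, h]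
    push_cast
    rw [add_smul, one_smul]
    abel

theorem anti_sum (P : Pin Ω G V) (s : Finset Ω) (k : Option (Ω ⊕ Ω))
    (h : ∀ i ∈ s, k ≠ some (.inl i)) : P.a k * (∑ i ∈ s, P.a (some (.inl i))) =
      -((∑ i ∈ s, P.a (some (.inl i))) * P.a k) := by
  rw [mul_sum, sum_mul, ← sum_neg_distrib]
  exact sum_congr rfl fun i hi => P.anti _ _ (h i hi)

theorem fam_sq (P : Pin Ω G V) (α : Fin m → ℕ) (i : Option (Ω ⊕ {j // α j ≠ 0})) (f : Col Ω α) :
    fam P α i f * fam P α i f = dd α i • (1 : Module.End ℂ V) := by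
  rcases i with _ | i | j
  · simp [fam, dd, P.sq]
  · simp [fam, dd, P.sq]
  · simp only [fam, dd, sum_sq]
    rw [← congrFun f.2 j.1]
    rfl

theorem fam_anti (P : Pin Ω G V) (α : Fin m → ℕ) (i j : Option (Ω ⊕ {j // α j ≠ 0}))
    (f : Col Ω α) (h : i ≠ j) : fam P α i f * fam P α j f = -(fam P α j f * fam P α i f) := by
  rcases i with _ | i | i <;> rcases j with _ | j | j <;> simp only [fam]
  · exact absurd rfl h
  · exact P.anti _ _ (by simp)
  · exact anti_sum P _ _ (by simp)
  · exact P.anti _ _ (by simp)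
  · exact P.anti _ _ (by simpa using h)
  · exact anti_sum P _ _ (by simp)
  · rw [anti_sum P _ _ (by simp), neg_neg]
  · rw [anti_sum P _ _ (by simp), neg_neg]
  · rw [sum_mul, mul_sum, ← sum_neg_distrib]
    refine sum_congr rfl fun x hx => anti_sum P _ _ fun y hy e => h ?_
    simp only [Option.some.injEq, Sum.inl.injEq] at e
    rw [mem_filter] at hx hy
    rw [Subtype.ext (hx.2.symm.trans (e ▸ hy.2) : i.1 = j.1)]

theorem fam_act (P : Pin Ω G V) (α : Fin m → ℕ) (g : G) (i : Option (Ω ⊕ {j // α j ≠ 0}))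
    (f : Col Ω α) : P.ρ g * fam P α i (pull (P.π g) f) =
      ((Perm.sign (P.π g) : ℤ) : ℂ) • (fam P α i f * P.ρ g) := by
  rcases i with _ | i | j
  · exact P.actP g
  · exact P.actδ g i
  · simp only [fam]
    rw [mul_sum, sum_mul, smul_sum]
    refine Finset.sum_equiv (P.π g) (fun i => by
      simp only [mem_filter, mem_univ, true_and]; rfl) fun i _ => P.actγ g i
end

theorem jobTheta (hCL : CL) : Theta := by
  intro Ω G V _ _ _ _ _ _ _ P m α
  classical
  have hd : ∀ i : Option (Ω ⊕ {j // α j ≠ 0}), dd α i ≠ 0 := by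
    rintro (_ | i | j)
    · exact one_ne_zero
    · exact one_ne_zero
    · exact Nat.cast_ne_zero.2 j.2
  have hc : Fintype.card (Ω ⊕ {j // α j ≠ 0}) =
      Fintype.card Ω + (univ.filter fun j => α j ≠ 0).card := by
    rw [Fintype.card_sum, Fintype.card_subtype]
  have hs : ∀ g : G, ((Perm.sign (P.π g) : ℤ) : ℂ) * ((Perm.sign (P.π g) : ℤ) : ℂ) = 1 := by
    intro g
    rcases Int.units_eq_one_or (Perm.sign (P.π g)) with h | h <;> simp [h]
  have hP : ∀ f : Col Ω α, fam P α none f * fam P α none f = 1 := fun f => P.sq none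
  have hA : ∀ (i : Ω ⊕ {j // α j ≠ 0}) (f : Col Ω α),
      fam P α none f * fam P α (some i) f = -(fam P α (some i) f * fam P α none f) :=
    fun i f => fam_anti P α _ _ f (by simp)
  have hB : ∀ (i j : Ω ⊕ {j // α j ≠ 0}) (f : Col Ω α),
      fam P α (some i) f * fam P α none f * (fam P α (some j) f * fam P α none f) =
        -(fam P α (some i) f * fam P α (some j) f) := by
    intro i j f
    rw [mul_assoc, ← mul_assoc (fam P α none f), hA, neg_mul, mul_assoc, hP, mul_one, mul_neg]
  constructor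
  · rw [← hc]
    refine core hCL α P.π P.ρ _ (fun i f => fam P α (some i) f * fam P α none f)
      (fun i => -dd α (some i)) (fun i => neg_ne_zero.2 (hd _)) ?_ ?_ ?_
    · intro i f
      rw [hB, fam_sq, neg_smul]
    · intro i j f h
      rw [hB, hB, fam_anti P α _ _ f (by simpa using h)]
    · intro g i f
      rw [← mul_assoc, fam_act, smul_mul_assoc, mul_assoc, fam_act, mul_smul_comm, smul_smul, hs,
        one_smul, mul_assoc]
  · rw [← hc, ← Fintype.card_option]
    refine core hCL α (P.π.comp P.Ev.subtype) (P.ρ.comp P.Ev.subtype) _ (fam P α) (dd α) hd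
      (fam_sq P α) (fam_anti P α) ?_
    intro g i f
    have h : Perm.sign (P.π g) = 1 := Perm.mem_alternatingGroup.1 g.2
    have := fam_act P α g i f
    rw [h] at this
    simpa using this

end H81.SpTh
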