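/- Elements of order five in the twisted group of type E6 over the field with four elements:
the conjugacy class. -/
import Cfsg.Agent.H67.T5A
import Cfsg.Agent.H57.StA

set_option autoImplicit false
set_option linter.unusedSectionVars false

namespace H81.T5

open Cfsg Cfsg.Lie H63 H64 H65 H46 H67 H67.Sub H67.T5
open scoped commutatorElement

/-- A root by its number. -/
def R (n : ℕ) (h : n < chevE6.nroots := by decide) : Rt chevE6 := ⟨n, h⟩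

/-- A node by its number. -/
def I (n : ℕ) (h : n < chevE6.rank := by decide) : Fin chevE6.rank := ⟨n, h⟩

/-- The symmetry of the diagram on roots. -/
noncomputable def rho (r : Rt chevE6) : Rt chevE6 := H68.twE6.ρ r

/-- The symmetry followed by the first reflection. -/
noncomputable def u0 (r : Rt chevE6) : Rt chevE6 := sref (I 0) (rho r)

/-- The roots of the subsystem of type A3. -/
def rt4 (i j : Fin 4) : ℕ :=
  ([[0, 46, 47, 71], [25, 0, 39, 70], [24, 32, 0, 69], [0, 1, 2, 0]].getD i []).getD j 0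

theorem d1 : ∀ r, (pr a0 (u0 r) - 2 * pr a0 r) % 5 = 0 := by decide +kernel

theorem d2 : ∀ r : Rt chevE6, pr a0 r % 5 = 0 → u0 r = r ∧ ∃ i j, i ≠ j ∧ (r : ℕ) = rt4 i j := by
  decide +kernel

theorem d3 : ∀ i j, i ≠ j → ∃ r : Rt chevE6, (r : ℕ) = rt4 i j ∧ pr a0 r % 5 = 0 := by
  decide +kernel

theorem d4 : ∀ i j k l, i ≠ j → k ≠ l → i ≠ l → j ≠ k → rt4 k l = rt4 i j ∨
    (rt4 k l ≠ chevE6.neg (rt4 i j) ∧ chevE6.commTerms (rt4 i j) (rt4 k l) = []) := by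
  decide +kernel

theorem d5 : ∀ i j k, i ≠ j → j ≠ k → i ≠ k → rt4 i j ≠ rt4 j k ∧
    rt4 i j ≠ chevE6.neg (rt4 j k) ∧ (chevE6.commTerms (rt4 j k) (rt4 i j) = [(rt4 i k, 1, 1, 1)] ∨
      chevE6.commTerms (rt4 j k) (rt4 i j) = [(rt4 i k, -1, 1, 1)]) := by
  decide +kernel

theorem d6 : ∀ i j, rt4 i j < chevE6.nroots := by decide +kernel

variable {K : Type*} [Field K] {G : Type*} [Group G] {x : ℕ → K → G}
  {τ : (Fin chevE6.rank → Kˣ) →* G}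

theorem stA_rt4 (h : St chevE6 x) (h2 : (2 : K) = 0) : H57.StA fun i j t => x (rt4 i j) t := by
  have hc : ∀ i j k l : Fin 4, i ≠ j → k ≠ l → i ≠ l → j ≠ k → ∀ s t,
      Commute (x (rt4 i j) s) (x (rt4 k l) t) := fun i j k l h1 h3 h4 h5 s t => by
    by_cases e : rt4 k l = rt4 i j
    · rw [e, Commute, SemiconjBy, h.add _ (d6 _ _), h.add _ (d6 _ _), add_comm]
    · obtain ⟨h6, h7⟩ := (d4 i j k l h1 h3 h4 h5).resolve_left e
      have := h.comm _ _ (d6 i j) (d6 k l) e h6 s t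
      rw [ChevalleyDatum.commWord, h7] at this
      simpa [Commute, SemiconjBy] using this.symm
  refine ⟨fun i j _ => h.add _ (d6 i j), hc, fun i j k h1 h3 h4 s t => ?_⟩
  obtain ⟨h5, h6, h7⟩ := d5 i j k h1 h3 h4
  have e : x (rt4 i j) s * x (rt4 j k) t = x (rt4 j k) t * x (rt4 i j) s * x (rt4 i k) (s * t) := by
    rw [h.comm _ _ (d6 j k) (d6 i j) h5 h6 t s, ChevalleyDatum.commWord]
    rcases h7 with h7 | h7 <;> rw [h7] <;> simp [neg_eq_of_two h2, mul_comm]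
  rw [e, mul_assoc _ (x (rt4 i k) _), (hc i k i j h4 h1 h1 h4.symm _ _).inv_right.eq, ← mul_assoc,
    mul_inv_cancel_right, (hc j k i k h3 h4 h3 h4.symm _ _).eq, mul_inv_cancel_right]

theorem exists_n_conj (hτ : TorOK chevE6 x τ) (h : StB chevE6 x) (i : Fin chevE6.rank)
    (c : Fin chevE6.rank → Kˣ) : ∃ c', nn chevE6 x (chevE6.simple i) 1 * τ c *
      (nn chevE6 x (chevE6.simple i) 1)⁻¹ = τ c' ∧
      ∀ r, chi chevE6 c' (sref i r) = chi chevE6 c r := by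
  refine ⟨_, hτ.n_conj h.toStN i c, fun r => ?_⟩
  have := hτ.chi_conj h (h.nn_mem_N (simpleR i) one_ne_zero) (act_nn h (simpleR i))
    (mul_inv_eq_iff_eq_mul.1 (hτ.n_conj h.toStN i c)) r
  rw [← refl_simpleR]
  exact this

theorem chi_inv' (c : Fin chevE6.rank → Kˣ) (r : ℕ) :
    chi chevE6 c⁻¹ r = (chi chevE6 c r)⁻¹ := by simp only [chi_eq, inv_ev]

variable (x) in
/-- The representative of the first reflection. -/
def n0 : G := nn chevE6 x (chevE6.simple (I 0)) 1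

variable (x) in
/-- The Levi subgroup of the two end nodes. -/
noncomputable def MM : Subgroup G := gen (XR chevE6 x) {R 56, R 15, R 36, R 35} ⊔ HH chevE6 x

variable (x) in
/-- The twisted endomorphism. -/
def tw (γ : G →* G) : G →* G := (MulAut.conj (n0 x)).toMonoidHom.comp γ

theorem tw_apply (γ : G →* G) (g : G) : tw x γ g = n0 x * γ g * (n0 x)⁻¹ := rfl

variable (x τ) in
/-- The facts used about the group over the algebraically closed field. -/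
structure Ctx (γ : G →* G) (Y : Subgroup G) (ζ : Kˣ) : Prop where
  hτ : TorOK chevE6 x τ
  h : StB chevE6 x
  top : GG chevE6 x = ⊤
  ker : ∀ d, τ d = 1 ↔ d ∈ cker chevE6 Kˣ
  f : F2 x γ rho
  lang : ∀ S : Set (Rt chevE6), (∀ r ∈ S, rho r ∈ S) → ∀ y ∈ gen (XR chevE6 x) S ⊔ HH chevE6 x,
    ∃ v ∈ gen (XR chevE6 x) S ⊔ HH chevE6 x, v⁻¹ * γ v = y
  lang0 : ∀ S : Set (Rt chevE6), (∀ r ∈ S, u0 r ∈ S) → ∀ y ∈ gen (XR chevE6 x) S ⊔ HH chevE6 x,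
    ∃ v ∈ gen (XR chevE6 x) S ⊔ HH chevE6 x, v⁻¹ * tw x γ v = y
  ord : orderOf ζ = 5
  root : ∀ y : Kˣ, y ^ 5 = 1 → y ∈ Subgroup.zpowers ζ
  fix : ∀ y ∈ Y, γ y = y
  comm : ∀ a b, γ a = a → γ b = b → ⁅a, b⁆ ∈ Y
  dec : ∀ g, γ g = g → ∃ a ∈ Y, ∃ b ∈ HH chevE6 x, γ b = b ∧ g = a * b
  small : ∀ c, τ c ∈ Y → ∃ d, d ^ 3 = 1 ∧ τ c = τ d
  ss : ∀ s : G, s ^ 5 = 1 → ∃ g c, c ^ 5 = 1 ∧ g * s * g⁻¹ = τ c

variable {γ : G →* G} {Y : Subgroup G} {ζ : Kˣ} (C : Ctx x τ γ Y ζ)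
include C

theorem Ctx.f0 : F2 x (tw x γ) u0 := C.f.conj_n C.h.toStN (I 0)

theorem Ctx.zpow_eq {a b : ℤ} : ζ ^ a = ζ ^ b ↔ (a - b) % 5 = 0 := by
  rw [zpow_eq_zpow_iff_modEq, C.ord, Int.modEq_iff_dvd]
  omega

theorem Ctx.chi_c0 {r : Rt chevE6} : chi chevE6 (zp ζ a0) r = 1 ↔ pr a0 r % 5 = 0 := by
  rw [chi_zp, ← zpow_zero ζ, C.zpow_eq, sub_zero]

theorem Ctx.tor_eq {c c' : Fin chevE6.rank → Kˣ} (e : ∀ r : Rt chevE6,
    chi chevE6 c r = chi chevE6 c' r) : τ c = τ c' := tor_eq_of_chi (fun d => (C.ker d).2) e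

theorem Ctx.c0_pow : zp ζ a0 ^ 5 = 1 := by
  rw [zp_pow, ← C.ord, pow_orderOf_eq_one]; funext i; simp [zp]

theorem Ctx.fix_c0 : tw x γ (τ (zp ζ a0)) = τ (zp ζ a0) := by
  obtain ⟨c, hc⟩ := C.hτ.exists C.h.toStN (C.f0.map_HH (C.hτ.mem C.h.toStN (zp ζ a0)))
  rw [← hc]
  refine C.tor_eq fun r => ?_
  obtain ⟨r, rfl⟩ : ∃ s, u0 s = r := (by decide +kernel : ∀ r, ∃ s, u0 s = r) r
  rw [C.f0.chi_eq C.hτ C.h hc.symm, chi_zp, chi_zp, ← zpow_natCast, ← zpow_mul, C.zpow_eq]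
  have := d1 r
  push_cast
  omega

theorem Ctx.mem_CP {g : G} (e : g * τ (zp ζ a0) = τ (zp ζ a0) * g) :
    g ∈ CP chevE6 x (zp ζ a0) := by
  refine mem_CP_of_comm' C.hτ C.h (e := 5) (fun d h1 h2 => ?_) (by norm_num) C.c0_pow
    (C.top ▸ Subgroup.mem_top _) e
  have h3 : d ^ 3 = 1 := kerE6.pow_eq_one' ((C.ker d).1 h1)
  calc d = (d ^ 3) ^ 2 * (d ^ 5)⁻¹ := by group
    _ = 1 := by rw [h2, h3]; simp

theorem Ctx.conj_c0 {s : G} (hs : γ s = s) (h5 : s ^ 5 = 1) (h1 : s ≠ 1) :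
    ∃ z, z * s * z⁻¹ = τ (zp ζ a0) := by
  obtain ⟨z, c, hc, hz⟩ := C.ss s h5
  choose a ha using fun i => C.root (c i) (congrFun hc i)
  obtain rfl : c = zp ζ a := funext fun i => (ha i).symm
  obtain ⟨c', hc'⟩ := C.hτ.exists C.h.toStN (C.f.map_HH (C.hτ.mem C.h.toStN (zp ζ a)))
  obtain ⟨-, -, -, -, v, -, h6, -, -⟩ := decomp C.hτ C.h (g := z * (γ z)⁻¹) (c := zp ζ a)
    (c' := c') (C.top ▸ Subgroup.mem_top _)
    (by rw [hc', ← hz, map_mul, map_mul, map_inv, hs]; group)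
  have h7 : ∀ r, lg (pr a ((v.1 * H68.twE6.ρ) r)) = -lg (pr a r) := fun r => by
    rw [← lg_two]
    refine lg_congr (C.zpow_eq.1 ?_)
    rw [← chi_zp, mul_comm, zpow_mul, ← chi_zp]
    exact (h6 _).trans ((C.f.chi_eq C.hτ C.h hc'.symm r).trans (zpow_natCast _ 2).symm)
  have h8 := Equiv.sum_comp (v.1 * H68.twE6.ρ) fun r => lg (pr a r)
  simp only [h7, Finset.sum_neg_distrib] at h8
  rcases rat_class a (by omega) with h9 | ⟨w, h9⟩
  · refine absurd ?_ h1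
    rwa [C.tor_eq (c' := 1) (fun r => by
      rw [chi_one, chi_zp, ← zpow_zero ζ, C.zpow_eq, sub_zero, h9]), map_one, conj_eq_one_iff] at hz
  · obtain ⟨m, hm⟩ := exists_conj_of_W C.hτ C.h (fun d => (C.ker d).2) w (c := zp ζ a)
      (c' := zp ζ a0) fun r => by rw [chi_zp, chi_zp, C.zpow_eq, h9]
    exact ⟨m * z, by rw [← hm, ← hz]; group⟩

theorem Ctx.conj_c0' {s : G} (hs : γ s = s) (h5 : s ^ 5 = 1) (h1 : s ≠ 1) :
    ∃ g, n0 x * γ g = g ∧ g * s * g⁻¹ = τ (zp ζ a0) := by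
  obtain ⟨z, hz⟩ := C.conj_c0 hs h5 h1
  have e : γ z * s * (γ z)⁻¹ = (n0 x)⁻¹ * (z * s * z⁻¹) * n0 x := by
    have := C.fix_c0
    rw [tw_apply, ← hz, map_mul, map_mul, map_inv, hs] at this
    conv_rhs => rw [← this]
    group
  obtain ⟨v, hv, e2⟩ := C.lang0 _ (fun r hr => by rwa [(d2 r (C.chi_c0.1 hr)).1]) _
    (C.mem_CP (g := z * (γ z)⁻¹ * (n0 x)⁻¹) (by
      rw [← hz]
      calc z * (γ z)⁻¹ * (n0 x)⁻¹ * (z * s * z⁻¹)
          = z * (γ z)⁻¹ * ((n0 x)⁻¹ * (z * s * z⁻¹) * n0 x) * (n0 x)⁻¹ := by group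
        _ = _ := by rw [← e]; group))
  refine ⟨v * z, ?_, ?_⟩
  · calc n0 x * γ (v * z) = v * (v⁻¹ * tw x γ v) * n0 x * γ z := by rw [map_mul, tw_apply]; group
      _ = _ := by rw [e2]; group
  · rw [show v * z * s * (v * z)⁻¹ = v * (z * s * z⁻¹) * v⁻¹ by group, hz,
      Subgroup.mem_centralizer_singleton_iff.1 (CP_le C.hτ C.h.toStN _ hv), mul_inv_cancel_right]

theorem Ctx.exists_g0 : ∃ g ∈ MM x, n0 x * γ g = g := by
  obtain ⟨v, hv, e⟩ := C.lang {R 56, R 15, R 36, R 35} (by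
    simp only [Set.mem_insert_iff, Set.mem_singleton_iff]
    decide +kernel) (n0 x) (Subgroup.mem_sup_left (gen_mono _ (by
      rintro r (rfl | rfl)
      · exact Or.inl rfl
      · exact Or.inr (Or.inl rfl)) (nn_mem_pm (R 56) 1)))
  exact ⟨v⁻¹, inv_mem hv, by rw [← e, map_inv, mul_inv_cancel_right]⟩

theorem Ctx.comm_MM {c : Fin chevE6.rank → Kˣ} (h1 : chi chevE6 c 56 = 1)
    (h2 : chi chevE6 c 36 = 1) {g : G} (hg : g ∈ MM x) : g * τ c = τ c * g := by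
  refine comm_of_chi C.hτ C.h.toStN ?_ hg
  rintro r (rfl | rfl | rfl | rfl)
  · exact h1
  · exact (chi_negR c (R 56)).trans (inv_eq_one.2 h1)
  · exact h2
  · exact (chi_negR c (R 36)).trans (inv_eq_one.2 h2)

theorem Ctx.dec' {g : G} (hg : γ g = g) :
    ∃ a ∈ Y, ∃ b, (∀ m ∈ MM x, m * b = b * m) ∧ g = a * b := by
  obtain ⟨a, ha, b, hb, e, rfl⟩ := C.dec g hg
  obtain ⟨c, rfl⟩ := C.hτ.exists C.h.toStN hb
  have h1 : chi chevE6 c 36 = chi chevE6 c 56 ^ 2 := C.f.chi_eq C.hτ C.h e (R 56)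
  have h2 : chi chevE6 c 56 = chi chevE6 c 36 ^ 2 := C.f.chi_eq C.hτ C.h e (R 36)
  obtain ⟨c1, e1, h3⟩ := exists_n_conj C.hτ C.h (I 5) c
  obtain ⟨c2, e2, h4⟩ := exists_n_conj C.hτ C.h (I 0) c1
  have h5 : γ (nn chevE6 x 56 1 * nn chevE6 x 36 1) = nn chevE6 x 56 1 * nn chevE6 x 36 1 := by
    have := commute_gen C.h.toSt (fun _ hr _ hs => so_pm (a := R 56) (b := R 36)
      (by unfold SO; decide +kernel) hr hs) (nn_mem_pm (R 56) 1) (nn_mem_pm (R 36) 1)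
    rw [map_mul]
    exact (congrArg₂ (· * ·) (C.f.map_nn (R 56) 1) (C.f.map_nn (R 36) 1)).trans
      (by rw [one_pow]; exact this.symm)
  have h6 : τ (c2 * c⁻¹) ∈ Y := by
    convert C.comm _ _ h5 e using 1
    rw [map_mul, map_inv, ← e2, ← e1, commutatorElement_def]
    change nn chevE6 x 56 1 * (nn chevE6 x 36 1 * _ * (nn chevE6 x 36 1)⁻¹) * (nn chevE6 x 56 1)⁻¹ *
      _ = _
    group
  have h7 : chi chevE6 c2 56 = (chi chevE6 c 56)⁻¹ :=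
    ((h4 (R 15)).trans (h3 (R 15))).trans (chi_negR c (R 56))
  have h8 : chi chevE6 c2 36 = (chi chevE6 c 36)⁻¹ :=
    ((h4 (R 36)).trans (h3 (R 35))).trans (chi_negR c (R 36))
  have h9 : chi chevE6 c 56 ^ 3 = 1 := by
    rw [h1, ← pow_mul, show 2 * 2 = 3 + 1 from rfl, pow_succ] at h2
    exact mul_eq_right.1 h2.symm
  refine ⟨a * τ (c2 * c⁻¹), mul_mem ha h6, τ ((c2 * c⁻¹)⁻¹ * c), fun m hm => C.comm_MM ?_ ?_ hm,
    by rw [mul_assoc, ← map_mul, mul_inv_cancel_left]⟩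
  · rw [chi_mul, chi_inv', chi_mul, chi_inv', h7, ← h9]; group
  · rw [chi_mul, chi_inv', chi_mul, chi_inv', h8, h1, ← one_pow 2, ← h9]; group

/-- All elements of order five are conjugate to one element. -/
theorem Ctx.conj_x0 {g0 : G} (h0 : g0 ∈ MM x) (e0 : n0 x * γ g0 = g0) {s : G} (hs : γ s = s)
    (h5 : s ^ 5 = 1) (h1 : s ≠ 1) : ∃ y ∈ Y, s = y * (g0⁻¹ * τ (zp ζ a0) * g0) * y⁻¹ := by
  obtain ⟨g, e, hg⟩ := C.conj_c0' hs h5 h1
  obtain ⟨y, hy, b, hb, e2⟩ := C.dec' (g := g⁻¹ * g0) (by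
    rw [map_mul, map_inv]
    conv_rhs => rw [← e, ← e0]
    group)
  have := hb (g0⁻¹ * τ (zp ζ a0) * g0) (mul_mem (mul_mem (inv_mem h0)
    (Subgroup.mem_sup_right (C.hτ.mem C.h.toStN _))) h0)
  refine ⟨y, hy, ?_⟩
  rw [← mul_inv_cancel_right (g0⁻¹ * τ (zp ζ a0) * g0) b, this]
  calc s = g⁻¹ * g0 * (g0⁻¹ * (g * s * g⁻¹) * g0) * (g⁻¹ * g0)⁻¹ := by group
    _ = _ := by rw [e2, hg]; group

end H81.T5
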