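/- Elements of order five in the twisted group of type E6 over the field with four elements:
the centraliser. -/
import Cfsg.Agent.H81.T5B
import Cfsg.Agent.S0256
import Cfsg.Agent.H55.Basic

set_option autoImplicit false
set_option linter.unusedSectionVars false

namespace H81.T5

open Cfsg Cfsg.Lie H63 H64 H65 H46 H67 H67.Sub H67.T5
open scoped commutatorElement

/-- The special linear group of degree four over the field with two elements. -/
abbrev L4 : Type := Matrix.SpecialLinearGroup (Fin 4) (ZMod 2)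

theorem center_L4 : Subgroup.center L4 = ⊥ := by
  refine eq_bot_iff.2 fun g hg => ?_
  obtain ⟨r, h1, h2⟩ := Matrix.SpecialLinearGroup.mem_center_iff.1 hg
  obtain rfl : r = 1 := (by decide : ∀ r : ZMod 2, r ^ Fintype.card (Fin 4) = 1 → r = 1) r h1
  exact Subtype.ext (by rw [← h2]; simp)

theorem L4_equiv : Nonempty (L4 ≃* alternatingGroup (Fin 8)) := by
  obtain ⟨e⟩ := Cfsg.Agent.S0256.result (F := ZMod 2) (ZMod.card 2)
  exact ⟨(H55.quotCenterEquivSelf center_L4).symm.trans e⟩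

theorem simple_L4 : IsSimpleGroup L4 := by
  obtain ⟨e⟩ := L4_equiv
  have : IsSimpleGroup (alternatingGroup (Fin 8)) := alternatingGroup.isSimpleGroup (by simp)
  exact e.isSimpleGroup

theorem commutator_L4 : commutator L4 = ⊤ := by
  have := simple_L4
  refine (inferInstance : (commutator L4).Normal).eq_bot_or_eq_top.resolve_left fun h => ?_
  rw [commutator_eq_bot_iff_center_eq_top, center_L4] at h
  exact bot_ne_top h

variable {K : Type*} [Field K] [IsAlgClosed K] {G : Type*} [Group G] {x : ℕ → K → G}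
  {τ : (Fin chevE6.rank → Kˣ) →* G} {γ : G →* G} {Y : Subgroup G} {ζ : Kˣ} (C : Ctx x τ γ Y ζ)
include C

theorem Ctx.exists_phi : ∃ φ : L4 →* G, Function.Injective φ ∧
    (∀ r : Rt chevE6, chi chevE6 (zp ζ a0) r = 1 → x r 1 ∈ φ.range) ∧
    ∀ a, tw x γ (φ a) = φ a ∧ φ a * τ (zp ζ a0) = τ (zp ζ a0) * φ a := by
  have : CharP K 2 := CharTwo.of_one_ne_zero_of_two_eq_zero one_ne_zero C.f.two
  let f : ZMod 2 →+* K := ZMod.castHom (dvd_refl 2) K
  obtain ⟨φ, hφ⟩ := (stA_rt4 (st_fld C.h.toSt f) rfl).exists_hom (by norm_num)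
  refine ⟨φ, ?_, fun r hr => ?_, fun a => ?_⟩
  · have := simple_L4
    rw [← MonoidHom.ker_eq_bot_iff]
    refine (inferInstance : φ.ker.Normal).eq_bot_or_eq_top.resolve_right fun h => ?_
    have h1 : φ (H57.xA 0 1 1) = 1 := MonoidHom.mem_ker.1 (h ▸ Subgroup.mem_top _)
    rw [hφ 0 1 (by decide), map_one] at h1
    exact one_ne_zero (C.h.x_injective (R 46) (h1.trans (C.h.toSt.x_zero (R 46)).symm))
  · obtain ⟨-, i, j, h1, h2⟩ := d2 r (C.chi_c0.1 hr)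
    exact ⟨H57.xA i j 1, by rw [hφ i j h1, map_one, h2]⟩
  · have : (⊤ : Subgroup L4) ≤ (((tw x γ).eqLocus (MonoidHom.id G)) ⊓
        Subgroup.centralizer {τ (zp ζ a0)}).comap φ := by
      rw [← H57.closure_xA, Subgroup.closure_le]
      rintro _ ⟨i, j, t, h, rfl⟩
      obtain ⟨r, h1, h2⟩ := d3 i j h
      rw [SetLike.mem_coe, Subgroup.mem_comap, hφ i j h, ← h1]
      refine ⟨?_, Subgroup.mem_centralizer_singleton_iff.2
        (x_comm_tor C.hτ C.h.toStN (C.chi_c0.2 h2) _)⟩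
      change tw x γ _ = x r (f t)
      rw [C.f0.map_x, (d2 r h2).1, ← map_pow, ZMod.pow_card]
    exact ⟨(this (Subgroup.mem_top a)).1,
      Subgroup.mem_centralizer_singleton_iff.1 (this (Subgroup.mem_top a)).2⟩

theorem Ctx.chi_small {c : Fin chevE6.rank → Kˣ} (hc : τ c ∈ Y) :
    chi chevE6 c 56 * chi chevE6 c 42 ^ 2 * chi chevE6 c 37 * chi chevE6 c 36 ^ 2 = 1 := by
  obtain ⟨d, hd, e⟩ := C.small c hc
  have h1 := chi_eq_of_tor C.hτ C.h e
  rw [show chi chevE6 c 56 = chi chevE6 d 56 from h1 (R 56),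
    show chi chevE6 c 42 = chi chevE6 d 42 from h1 (R 42),
    show chi chevE6 c 37 = chi chevE6 d 37 from h1 (R 37),
    show chi chevE6 c 36 = chi chevE6 d 36 from h1 (R 36)]
  simp only [chi_eq]
  rw [← zpow_natCast, ← zpow_natCast, ← ev_smul, ← ev_smul, ← ev_add, ← ev_add, ← ev_add,
    show wt chevE6 56 + ((2 : ℕ) : ℤ) • wt chevE6 42 + wt chevE6 37 + ((2 : ℕ) : ℤ) • wt chevE6 36 =
      ((3 : ℕ) : ℤ) • fun i : Fin chevE6.rank => ([0, 0, 1, -1, 0, 1].getD i 0 : ℤ) by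
      decide +kernel, ev_smul,
    zpow_natCast, ← pow_ev, hd, one_ev]

theorem Ctx.mem_zpowers {g0 : G} (h0 : g0 ∈ MM x) {c : Fin chevE6.rank → Kˣ}
    (hf : tw x γ (τ c) = τ c) (hY : g0⁻¹ * τ c * g0 ∈ Y) :
    τ c ∈ Subgroup.zpowers (τ (zp ζ a0)) := by
  have h := C.f0.chi_eq C.hτ C.h hf
  have h1 : chi chevE6 c 46 = chi chevE6 c 46 ^ 2 := h (R 46)
  have h2 : chi chevE6 c 39 = chi chevE6 c 39 ^ 2 := h (R 39)
  have h3 : chi chevE6 c 36 = chi chevE6 c 56 ^ 2 := h (R 56)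
  have h4 : (chi chevE6 c 56)⁻¹ = chi chevE6 c 36 ^ 2 := (chi_negR c (R 56)).symm.trans (h (R 36))
  have h5 : chi chevE6 c 37 = chi chevE6 c 42 ^ 2 := h (R 42)
  have h6 : chi chevE6 c 56 ^ (1 : ℤ) * chi chevE6 c 42 ^ (1 : ℤ) = chi chevE6 c 37 ^ 2 :=
    (chi_of_comb c (r := R 56) (s := R 42) (u := u0 (R 37)) (by decide +kernel)).symm.trans
      (h (R 37))
  rw [sq, left_eq_mul] at h1 h2
  obtain ⟨l, hl⟩ : ∃ l, chi chevE6 c 42 = l := ⟨_, rfl⟩
  rw [hl] at h5 h6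
  have h7 : chi chevE6 c 56 = l ^ 3 := by
    rw [h5, zpow_one, zpow_one] at h6
    rw [eq_mul_inv_of_mul_eq h6]; group
  have h8 : l ^ 15 = 1 := by
    rw [h3, h7] at h4
    rw [show l ^ 15 = l ^ 3 * ((l ^ 3) ^ 2) ^ 2 by group, ← h4, mul_inv_cancel]
  have h9 : l ^ 30 = 1 := by rw [show 30 = 15 * 2 from rfl, pow_mul, h8, one_pow]
  have h10 : τ (c ^ 10) ∈ Y := by
    have := C.comm_MM (c := c ^ 10) (by rw [chi_pow, h7, ← pow_mul, h9])
      (by rw [chi_pow, h3, h7, ← pow_mul, ← pow_mul, show 3 * (2 * 10) = 30 * 2 from rfl, pow_mul,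
        h9, one_pow]) h0
    convert pow_mem hY 10 using 1
    rw [show g0⁻¹ * τ c * g0 = g0⁻¹ * τ c * g0⁻¹⁻¹ by rw [inv_inv], conj_pow, ← map_pow, inv_inv,
      mul_assoc, ← this, inv_mul_cancel_left]
  have h11 := C.chi_small h10
  simp only [chi_pow, h3, h5, h7, hl] at h11
  have h12 : l ^ 5 = 1 := by
    rw [show l ^ 5 = (l ^ 15) ^ 13 * ((l ^ 3) ^ 10 * (l ^ 10) ^ 2 * (l ^ 2) ^ 10 *
      (((l ^ 3) ^ 2) ^ 10) ^ 2)⁻¹ by group, h8, h11]
    simp
  obtain ⟨j, rfl⟩ := C.root l h12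
  refine ⟨4 * j, ?_⟩
  have e : ∀ r : Rt chevE6, chi chevE6 (zp ζ a0 ^ (4 * j)) r = ζ ^ (pr a0 r * (4 * j)) :=
    fun r => by rw [chi_eq, zpow_ev, ← chi_eq, chi_zp, ← zpow_mul]
  change τ _ ^ _ = _
  rw [← map_zpow]
  refine C.tor_eq fun r => ?_
  rw [chi_eq_prod, chi_eq_prod c]
  refine Finset.prod_congr rfl fun i _ => congrArg (· ^ _) ((e (simpleR i)).trans ?_)
  have hi : ∀ i : Fin chevE6.rank, (chevE6.simple i = 46 ∨ chevE6.simple i = 39) ∧
      pr a0 (simpleR i) % 5 = 0 ∨ chevE6.simple i = 56 ∧ pr a0 (simpleR i) = 2 ∨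
      chevE6.simple i = 42 ∧ pr a0 (simpleR i) = -1 ∨ chevE6.simple i = 37 ∧
      pr a0 (simpleR i) = -2 ∨ chevE6.simple i = 36 ∧ pr a0 (simpleR i) = 4 := by decide +kernel
  rcases hi i with ⟨e1, e2⟩ | ⟨e1, e2⟩ | ⟨e1, e2⟩ | ⟨e1, e2⟩ | ⟨e1, e2⟩
  · have : chi chevE6 c (chevE6.simple i) = ζ ^ (0 : ℤ) := by
      rcases e1 with e1 | e1 <;> rw [e1, zpow_zero] <;> assumption
    rw [this, C.zpow_eq, sub_zero, Int.mul_emod, e2]; simp
  all_goals
    simp only [e1, e2, h3, h5, h7, hl, ← zpow_natCast, ← zpow_mul]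
    rw [C.zpow_eq]
    push_cast
    omega

theorem Ctx.ord_c0 : orderOf (τ (zp ζ a0)) = 5 := by
  have : Fact (Nat.Prime 5) := ⟨by norm_num⟩
  refine orderOf_eq_prime (by rw [← map_pow, C.c0_pow, map_one]) fun h => ?_
  have := chi_eq_of_tor C.hτ C.h (h.trans (map_one τ).symm) (R 56)
  rw [chi_one, C.chi_c0] at this
  exact absurd this (by decide +kernel)

theorem Ctx.cent {g0 : G} (h0 : g0 ∈ MM x) (e0 : n0 x * γ g0 = g0)
    (hx : g0⁻¹ * τ (zp ζ a0) * g0 ∈ Y) : ∃ ψ : Multiplicative (ZMod 5) × L4 →* G,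
      Function.Injective ψ ∧ ∀ w, w ∈ ψ.range ↔
        g0⁻¹ * w * g0 ∈ Y ∧ w * τ (zp ζ a0) = τ (zp ζ a0) * w := by
  obtain ⟨φ, hφ, h1, h2⟩ := C.exists_phi
  have key : ∀ w, tw x γ w = w ↔ γ (g0⁻¹ * w * g0) = g0⁻¹ * w * g0 := fun w => by
    have e : γ (g0⁻¹ * w * g0) = g0⁻¹ * tw x γ w * g0 := by
      rw [map_mul, map_mul, map_inv, tw_apply]
      conv_rhs => rw [← e0]
      group
    rw [e, mul_left_inj, mul_right_inj]
  let Y0 : Subgroup G := Y.comap (MulAut.conj g0⁻¹).toMonoidHom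
  have hY0 : ∀ w, w ∈ Y0 ↔ g0⁻¹ * w * g0 ∈ Y := fun w => by simp [Y0]
  have h3 : ∀ a, φ a ∈ Y0 := fun a => by
    have : commutator L4 ≤ Y0.comap φ := by
      rw [commutator_def, Subgroup.commutator_le]
      intro a _ b _
      rw [Subgroup.mem_comap, hY0, map_commutatorElement]
      convert C.comm _ _ ((key _).1 (h2 a).1) ((key _).1 (h2 b).1) using 1
      simp only [commutatorElement_def]
      group
    exact this (commutator_L4 ▸ Subgroup.mem_top a)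
  let χ : Multiplicative (ZMod 5) →* G := (ZMod.lift 5 ⟨zmultiplesHom (Additive G)
    (Additive.ofMul (τ (zp ζ a0))), by
      change Additive.ofMul (τ (zp ζ a0) ^ ((5 : ℕ) : ℤ)) = 0
      rw [zpow_natCast, ← C.ord_c0, pow_orderOf_eq_one]; rfl⟩).toMultiplicativeLeft
  have hχ : ∀ n : ℤ, χ (Multiplicative.ofAdd (n : ZMod 5)) = τ (zp ζ a0) ^ n := fun n => by
    simp [χ]
  have hs : ∀ i : Multiplicative (ZMod 5), ∃ n : ℤ, i = Multiplicative.ofAdd (n : ZMod 5) :=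
    fun i => ⟨(i.toAdd.cast : ℤ), by simp⟩
  have hc : ∀ (n : ℤ) a, Commute (τ (zp ζ a0) ^ n) (φ a) := fun n a =>
    Commute.zpow_left (h2 a).2.symm n
  refine ⟨χ.noncommCoprod φ fun i a => ?_, (injective_iff_map_eq_one _).2 fun p hp => ?_,
    fun w => ⟨?_, fun hw => ?_⟩⟩
  · obtain ⟨n, rfl⟩ := hs i
    exact hχ n ▸ hc n a
  · obtain ⟨i, a⟩ := p
    obtain ⟨n, rfl⟩ := hs i
    rw [MonoidHom.noncommCoprod_apply, hχ] at hp
    have h4 : a ∈ Subgroup.center L4 := Subgroup.mem_center_iff.2 fun b => hφ (by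
      rw [map_mul, map_mul, eq_inv_of_mul_eq_one_right hp]
      exact (hc n b).inv_left.eq.symm)
    rw [center_L4, Subgroup.mem_bot] at h4
    subst h4
    rw [map_one, mul_one, ← orderOf_dvd_iff_zpow_eq_one, C.ord_c0] at hp
    rw [(ZMod.intCast_zmod_eq_zero_iff_dvd n 5).2 hp]
    rfl
  · rintro ⟨⟨i, a⟩, rfl⟩
    obtain ⟨n, rfl⟩ := hs i
    rw [MonoidHom.noncommCoprod_apply, hχ]
    exact ⟨(hY0 _).1 (mul_mem (zpow_mem ((hY0 _).2 hx) n) (h3 a)),
      ((Commute.refl _).zpow_left n).mul_left (h2 a).2⟩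
  · obtain ⟨_, ⟨a, rfl⟩, y, hy, h4, rfl⟩ := C.f0.fix_sub C.h (cl_chi (zp ζ a0))
      (fun r hr => (d2 r (C.chi_c0.1 hr)).1) h1 (C.mem_CP hw.2) ((key w).2 (C.fix _ hw.1))
    obtain ⟨c, rfl⟩ := C.hτ.exists C.h.toStN hy
    obtain ⟨n, hn⟩ := C.mem_zpowers h0 h4 ((hY0 _).1
      ((Y0.mul_mem_cancel_left (h3 a)).1 ((hY0 _).2 hw.1)))
    exact ⟨(Multiplicative.ofAdd (n : ZMod 5), a), by
      rw [MonoidHom.noncommCoprod_apply, hχ, ← hn]; exact (hc n a).eq⟩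

theorem Ctx.main {Z : Type*} [Group Z] (ι : Z →* G) (hι : Function.Injective ι)
    (hr : ι.range = Y) : (∀ a b : Z, orderOf a = 5 → orderOf b = 5 → IsConj a b) ∧
      ∀ a : Z, orderOf a = 5 → Nonempty (Subgroup.centralizer ({a} : Set Z) ≃*
        (Multiplicative (ZMod 5) × alternatingGroup (Fin 8))) := by
  subst hr
  obtain ⟨g0, h0, e0⟩ := C.exists_g0
  have h1 : ∀ a : Z, orderOf a = 5 → ∃ y, ι (y⁻¹ * a * y) = g0⁻¹ * τ (zp ζ a0) * g0 := fun a ha => by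
    obtain ⟨_, ⟨y, rfl⟩, e⟩ := C.conj_x0 h0 e0 (s := ι a) (C.fix _ ⟨a, rfl⟩)
      (by rw [← map_pow, ← ha, pow_orderOf_eq_one, map_one])
      (fun e => by rw [map_eq_one_iff ι hι] at e; simp [e] at ha)
    exact ⟨y, by rw [map_mul, map_mul, map_inv, e]; group⟩
  refine ⟨fun a b ha hb => ?_, fun a ha => ?_⟩
  · obtain ⟨y, e1⟩ := h1 a ha
    obtain ⟨z, e2⟩ := h1 b hb
    exact isConj_iff.2 ⟨z * y⁻¹, by
      rw [← mul_inv_cancel_left z b, ← mul_inv_cancel_right (z⁻¹ * b) z, ← hι (e1.trans e2.symm)]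
      group⟩
  obtain ⟨y, e⟩ := h1 a ha
  obtain ⟨ψ, hψ, h2⟩ := C.cent h0 e0 ⟨_, e⟩
  obtain ⟨e8⟩ := L4_equiv
  let θ : Z →* G := ((MulAut.conj g0).toMonoidHom.comp ι).comp (MulAut.conj y⁻¹).toMonoidHom
  have hθ : ∀ b, θ b = g0 * ι (y⁻¹ * b * y) * g0⁻¹ := fun b => by simp [θ]
  have hi : Function.Injective θ :=
    ((MulAut.conj g0).injective.comp hι).comp (MulAut.conj y⁻¹).injective
  have ha' : θ a = τ (zp ζ a0) := by rw [hθ, e]; group
  have h3 : (Subgroup.centralizer ({a} : Set Z)).map θ = ψ.range := by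
    ext w
    rw [h2, ← ha']
    constructor
    · rintro ⟨b, hb, rfl⟩
      exact ⟨⟨y⁻¹ * b * y, by rw [hθ]; group⟩, by
        rw [← map_mul, ← map_mul, Subgroup.mem_centralizer_singleton_iff.1 hb]⟩
    · rintro ⟨⟨b, hb⟩, h4⟩
      obtain rfl : θ (y * b * y⁻¹) = w := by
        rw [hθ, show y⁻¹ * (y * b * y⁻¹) * y = b by group, hb]; group
      exact ⟨_, Subgroup.mem_centralizer_singleton_iff.2 (hi ((map_mul θ _ a).trans
        (h4.trans (map_mul θ a _).symm))), rfl⟩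
  exact ⟨((((Subgroup.equivMapOfInjective _ θ hi).trans (MulEquiv.subgroupCongr h3)).trans
    (MonoidHom.ofInjective hψ).symm).trans (MulEquiv.prodCongr (MulEquiv.refl _) e8))⟩

omit C

section Conc

variable {k : Type*} [Field k] [IsAlgClosed k] {φ : k →+* k}

theorem lang_F2 (hφ : ∀ t, φ t = t ^ 2) {P : GL chevE6.Idx k}
    (hP : Matrix.GeneralLinearGroup.map φ P = P) {δ : ↥(chevE6.group k) →* ↥(chevE6.group k)}
    (hδ : ∀ g, (δ g : GL chevE6.Idx k) = P * Matrix.GeneralLinearGroup.map φ g * P⁻¹)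
    {u : Rt chevE6 → Rt chevE6} (f : F2 (xG chevE6 k) δ u) (S : Set (Rt chevE6))
    (hS : ∀ r ∈ S, u r ∈ S) (y : ↥(chevE6.group k))
    (hy : y ∈ gen (XR chevE6 (xG chevE6 k)) S ⊔ HH chevE6 (xG chevE6 k)) :
    ∃ v ∈ gen (XR chevE6 (xG chevE6 k)) S ⊔ HH chevE6 (xG chevE6 k), v⁻¹ * δ v = y := by
  have hle : gen (XR chevE6 (xU chevE6 k)) S ⊔ HH chevE6 (xU chevE6 k) ≤ chevE6.group k := by
    rw [group_eq]
    exact sup_le (gen_mono _ (Set.subset_univ _)) HH_le_GG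
  obtain ⟨e, he, h9⟩ := exists_pow_eq_one_of_fix le_rfl hφ hP
  obtain ⟨v, hv, hv'⟩ := (conn_gen_sup S).lang_tw φ le_rfl hφ _ hP he
    (fun g _ => by rw [h9, one_mul, mul_one]) (fun g hg => by
      rw [← hδ ⟨g, hle hg⟩, ← mem_sup_xG]
      exact f.map_sup stBG.toSt hS (mem_sup_xG.2 hg)) (mem_sup_xG.1 hy)
  exact ⟨⟨v, hle hv⟩, mem_sup_xG.2 hv, Subtype.ext ((congrArg _ (hδ ⟨v, hle hv⟩)).trans hv')⟩

theorem f2_gF (hφ : ∀ t, φ t = t ^ 2) (h2 : (2 : k) = 0) :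
    F2 (xG chevE6 k) (gF H68.graphE6 φ) rho where
  two := h2
  map_x r t := by
    rw [gF_x _ _ r.2, hφ, eq_one_of_two h2 (η := (H68.gamE6 r : ℤ))
      (by rw [← Int.cast_mul, H68.graphE6.sq r r.2, Int.cast_one]), one_mul]
    rfl
  neg r := Fin.ext (H68.graphE6.neg r r.2).1

end Conc

theorem final {K : Type*} [Field K] [Fintype K] (hK : Fintype.card K = 4) :
    (∀ a b : ↥(twistedE6 K 2), orderOf a = 5 → orderOf b = 5 → IsConj a b) ∧
      ∀ a : ↥(twistedE6 K 2), orderOf a = 5 →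
        Nonempty (Subgroup.centralizer ({a} : Set ↥(twistedE6 K 2)) ≃*
          (Multiplicative (ZMod 5) × alternatingGroup (Fin 8))) := by
  obtain ⟨σ, h1, h3, h4, h5⟩ := exists_frobAut_tw K (q := 2) Nat.prime_two.isPrimePow two_ne_zero hK
  set k := AlgebraicClosure K
  have h2 : (2 : k) = 0 := by simpa using h4
  have h6 : ((5 : ℕ) : k) ≠ 0 := fun e => one_ne_zero (α := k) (by
    push_cast at e; linear_combination e - 2 * h2)
  obtain ⟨ζ, hζ, hζ'⟩ := exists_root_unit h6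
  have hY := isTw_sE6 (σ : k →+* k) h1 hK (algebraMap K k) h3
  set S := (sE6 (σ : k →+* k) h1).twg (nontriv_sE6 _ h1)
  have hf : ∀ g : ↥(chevE6.group k), gF H68.graphE6 (σ : k →+* k) g = g ↔
      (g : GL chevE6.Idx k) ∈ S.Fix := fun g =>
    ⟨fun hg => ⟨(H68.mat_Gp (D := chevE6) (K := k)).symm ▸ g.2, congrArg Subtype.val hg⟩,
      fun hg => Subtype.ext hg.2⟩
  have hle : ∀ {g}, g ∈ S.Fix → g ∈ chevE6.group k := fun hg =>
    H68.mat_Gp (D := chevE6) (K := k) ▸ hg.1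
  let ι : ↥(twistedE6 K 2) →* ↥(chevE6.group k) :=
    ((Matrix.GeneralLinearGroup.map (algebraMap K k)).comp (twistedE6 K 2).subtype).codRestrict _
      fun y => hle (hY.le_fix ⟨y, y.2, rfl⟩)
  have hι : ∀ g : ↥(chevE6.group k), g ∈ ι.range ↔ (g : GL chevE6.Idx k) ∈
      (twistedE6 K 2).map (Matrix.GeneralLinearGroup.map (algebraMap K k)) := fun g =>
    ⟨fun ⟨y, e⟩ => ⟨y, y.2, congrArg Subtype.val e⟩, fun ⟨y, hy, e⟩ => ⟨⟨y, hy⟩, Subtype.ext e⟩⟩
  have f := f2_gF (φ := (σ : k →+* k)) h1 h2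
  have C : Ctx (xG chevE6 k) (torG chevE6 k) (gF H68.graphE6 (σ : k →+* k)) ι.range ζ := by
    refine ⟨torOK_xG, stBG, GG_xG, fun _ => torG_eq_one_iff, f,
      lang_F2 h1 (map_gP _ _) (gF_val _ _) f,
      lang_F2 (φ := (σ : k →+* k)) h1 (P := (n0 (xG chevE6 k)).1 * gP H68.graphE6 k) ?_ (fun g => ?_)
        (f.conj_n stBG.toStN (I 0)), hζ, hζ', fun y hy => (hf y).2 (hY.le_fix ((hι y).1 hy)),
      fun a b ha hb => (hι _).2 (comm_le_tw hY (fun a ha b hb => (H68.mat chevE6 k).H_comm ha hb)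
        (Subgroup.commutator_mem_commutator ((hf a).1 ha) ((hf b).1 hb))), fun g hg => ?_,
      fun c hc => ?_, fun s hs => exists_conj_tor_coprime le_rfl h1 h5
        (fun _ => kerE6.pow_eq_one') h6 (by norm_num) hs⟩
    · rw [map_mul, map_gP]
      have e : mapG chevE6 (σ : k →+* k) (n0 (xG chevE6 k)) = n0 (xG chevE6 k) :=
        (fld_nn (fun r t => mapG_xG (σ : k →+* k) r t) (simpleR (I 0)) 1).trans
          (by rw [map_one]; rfl)
      exact congrArg (· * gP H68.graphE6 k) (congrArg Subtype.val e)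
    · rw [tw_apply, Subgroup.coe_mul, Subgroup.coe_mul, gF_val, Subgroup.coe_inv]
      group
    · obtain ⟨a, ha, b, hb, e⟩ := exists_K0_mul ((hf g).1 hg)
      refine ⟨⟨a, hle (K0_le_Fix S ha)⟩, (hι _).2 (K0_le_tw hY ha), ⟨b, hle hb.2⟩, ?_,
        (hf _).2 hb.2, Subtype.ext e⟩
      have := (mem_sup_xG (S := ∅) (g := ⟨b, hle hb.2⟩)).2 (Subgroup.mem_sup_right hb.1)
      rwa [show gen (XR chevE6 (xG chevE6 k)) ∅ = ⊥ from
        eq_bot_iff.2 (gen_le fun _ h => h.elim), bot_sup_eq] at this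
    · obtain ⟨y, hy, e⟩ := (hι _).1 hc
      obtain ⟨d, hd⟩ := exists_tor_of_mapG (algebraMap K k)
        (g := ⟨y, H68.mat_Gp (D := chevE6) (K := K) ▸ H68.TwG.Fix_le _
          (H68.twistedE6_eq_Fix Nat.prime_two.isPrimePow hK ▸ hy)⟩) (c := c) (Subtype.ext e)
      refine ⟨_, ?_, hd⟩
      rw [← map_pow, show d ^ 3 = 1 from funext fun i => by
        have := pow_card_eq_one' (G := Kˣ) (x := d i)
        rwa [Nat.card_units, Nat.card_eq_fintype_card, hK] at this, map_one]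
  exact C.main ι (fun a b h => Subtype.ext (Units.ext (Matrix.ext fun i j =>
    (algebraMap K k).injective (congrArg (fun g : ↥(chevE6.group k) =>
      ((g : GL chevE6.Idx k) : Matrix chevE6.Idx chevE6.Idx k) i j) h)))) rfl

end H81.T5
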